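import Cfsg.Agent.Lib.Presentations.Odd

/-!
# Abstract bound for a Borel-like group

A group generated by `t` and `x`, with a normal `t`-module `Z` generated by the conjugates of `z`
and with the conjugates of `x` commuting modulo `Z`.
-/

set_option autoImplicit false
set_option linter.unusedSectionVars false
set_option linter.unusedVariables false
set_option linter.style.haveILetI false

namespace Cfsg.Agent.Lib.PresSU.Abs

open Polynomial Subgroup
open Cfsg.Agent.Lib.Presentations.Additive Cfsg.Agent.Lib.Presentations.Bound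
open Cfsg.Agent.Lib.Presentations.Commute

universe u

variable {G : Type*} [Group G] {p : ℕ} [Fact p.Prime]

/-- Powers. -/
lemma xx_pow_mem (h u : G) (S : Subgroup G) {k : ℤ} (hk : xx h u k ∈ S) (c : ℕ) :
    h ^ k * u ^ c * (h ^ k)⁻¹ ∈ S := by
  have : h ^ k * u ^ c * (h ^ k)⁻¹ = (xx h u k) ^ c := by
    simp only [xx]
    rw [conj_pow]
  rw [this]
  exact pow_mem hk c

/-- The partial products lie in the subgroup generated by the first conjugates. -/
lemma pwN_mem (h u : G) (S : Subgroup G) (c : ℕ → ℕ) (n : ℕ)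
    (hS : ∀ i : ℕ, i < n → xx h u i ∈ S) : pwN h u 1 c n ∈ S := by
  induction n with
  | zero => exact one_mem _
  | succ n ih =>
    rw [pwN]
    refine mul_mem (ih fun i hi => hS i (by omega)) ?_
    have := xx_pow_mem h u S (hS n (by omega)) (c n)
    simpa using this

/-- All conjugates lie in the span of the first ones, when a monic word is trivial. -/
theorem mem_seeds {h u : G} {f : (ZMod p)[X]} (hf : f.Monic) (hD : 0 < f.natDegree)
    {N : ℕ} (hN : 0 < N) (hord : h ^ N = 1) (hw : pw p h u 1 f = 1) (k : ℤ) :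
    xx h u k ∈ closure ((fun i : ℕ => xx h u i) '' Set.Iio f.natDegree) := by
  set D := f.natDegree with hDd
  set S := closure ((fun i : ℕ => xx h u i) '' Set.Iio D) with hS
  have hmem : ∀ i : ℕ, i < D → xx h u i ∈ S := fun i hi =>
    Subgroup.subset_closure ⟨i, hi, rfl⟩
  have hp1 : 1 < p := (Fact.out : p.Prime).one_lt
  have : Fact (1 < p) := ⟨hp1⟩
  have hD' : xx h u D ∈ S := by
    have e1 : pw p h u 1 f = pwN h u 1 (fun i => (f.coeff i).val) D *
        (h ^ (1 * D) * u ^ (f.coeff D).val * (h ^ (1 * D))⁻¹) := rfl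
    have hc : f.coeff D = 1 := hf
    rw [hc, ZMod.val_one, pow_one, one_mul, hw] at e1
    have e2 : xx h u D = (pwN h u 1 (fun i => (f.coeff i).val) D)⁻¹ := by
      have := eq_inv_of_mul_eq_one_right e1.symm
      rw [← this]
      simp [xx]
    rw [e2]
    exact inv_mem (pwN_mem h u S _ D hmem)
  have hinv : ∀ y ∈ S, h * y * h⁻¹ ∈ S := by
    intro y hy
    induction hy using closure_induction with
    | mem y hy =>
      obtain ⟨i, hi, rfl⟩ := hy
      have e := conj_xx h u 1 i
      rw [zpow_one] at e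
      show h * xx h u i * h⁻¹ ∈ S
      rw [e]
      have : (1 : ℤ) + i = ((i + 1 : ℕ) : ℤ) := by push_cast; ring
      rw [this]
      have hi' : i < D := hi
      rcases Nat.lt_or_ge (i + 1) D with h1 | h1
      · exact hmem _ h1
      · have : i + 1 = D := by omega
        rw [this]
        exact hD'
    | one => simp [one_mem]
    | mul y z _ _ hy hz =>
      have : h * (y * z) * h⁻¹ = (h * y * h⁻¹) * (h * z * h⁻¹) := by group
      rw [this]; exact mul_mem hy hz
    | inv y _ hy =>
      have : h * y⁻¹ * h⁻¹ = (h * y * h⁻¹)⁻¹ := by group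
      rw [this]; exact inv_mem hy
  have hnat : ∀ n : ℕ, xx h u n ∈ S := by
    intro n
    induction n with
    | zero =>
      have := hmem 0 hD
      simpa using this
    | succ n ih =>
      have := hinv _ ih
      have e := conj_xx h u 1 n
      rw [zpow_one] at e
      rw [e] at this
      convert this using 2
      push_cast
      ring
  have e0 : h ^ k = h ^ (k % (N : ℤ)) := zpow_eq_zpow_emod k (by rwa [zpow_natCast])
  obtain ⟨n, hn⟩ := Int.eq_ofNat_of_zero_le (Int.emod_nonneg k (by omega : (N : ℤ) ≠ 0))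
  have e1 : xx h u k = xx h u n := by
    simp only [xx]
    rw [e0, hn]
  rw [e1]
  exact hnat n

/-- Commutativity of all conjugates from the first ones. -/
theorem comm_seeds {h u : G} {f : (ZMod p)[X]} (hf : f.Monic) (hD : 0 < f.natDegree)
    {N : ℕ} (hN : 0 < N) (hord : h ^ N = 1) (hw : pw p h u 1 f = 1)
    (hcomm : ∀ m : ℕ, m < f.natDegree → Commute u (xx h u m)) (i j : ℤ) :
    Commute (xx h u i) (xx h u j) := by
  set S := closure ((fun i : ℕ => xx h u i) '' Set.Iio f.natDegree) with hS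
  have hpair0 : ∀ i j : ℕ, i ≤ j → j < f.natDegree → xx h u i * xx h u j = xx h u j * xx h u i := by
    intro i j hij hj
    have h1 : Commute (xx h u 0) (xx h u ((j - i : ℕ) : ℤ)) := by
      rw [xx_zero]
      exact hcomm (j - i) (by omega)
    have h2 := commute_shift h1 i
    have e : (i : ℤ) + ((j - i : ℕ) : ℤ) = j := by
      rw [Nat.cast_sub hij]; ring
    rw [e] at h2
    exact h2
  have hpair : ∀ y ∈ (fun i : ℕ => xx h u i) '' Set.Iio f.natDegree,
      ∀ z ∈ (fun i : ℕ => xx h u i) '' Set.Iio f.natDegree, y * z = z * y := by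
    rintro _ ⟨i, hi, rfl⟩ _ ⟨j, hj, rfl⟩
    rcases le_total i j with hij | hij
    · exact hpair0 i j hij hj
    · exact (hpair0 j i hij hi).symm
  have hcm := isMulCommutative_closure hpair
  have := hcm.is_comm.comm ⟨_, mem_seeds hf hD hN hord hw i⟩ ⟨_, mem_seeds hf hD hN hord hw j⟩
  exact congrArg Subtype.val this

/-- An element commuting with the first conjugates commutes with all. -/
theorem comm_x_seeds {h u x : G} {f : (ZMod p)[X]} (hf : f.Monic) (hD : 0 < f.natDegree)
    {N : ℕ} (hN : 0 < N) (hord : h ^ N = 1) (hw : pw p h u 1 f = 1)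
    (hcomm : ∀ m : ℕ, m < f.natDegree → Commute x (xx h u m)) (k : ℤ) :
    Commute x (xx h u k) := by
  have hle : closure ((fun i : ℕ => xx h u i) '' Set.Iio f.natDegree) ≤ centralizer {x} := by
    rw [closure_le]
    rintro _ ⟨i, hi, rfl⟩
    rw [SetLike.mem_coe, mem_centralizer_singleton_iff]
    exact (hcomm i hi).eq.symm
  have := hle (mem_seeds hf hD hN hord hw k)
  rw [mem_centralizer_singleton_iff] at this
  exact this.symm

/-- `pw` lies in the centralizer. -/
lemma pw_mem_centralizer {h u c : G} (d : ℕ) (hh : Commute (h ^ d) c) (hu : Commute u c)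
    (f : (ZMod p)[X]) : Commute (pw p h u d f) c := by
  have key : ∀ (e : ℕ → ℕ) (n : ℕ), Commute (pwN h u d e n) c := by
    intro e n
    induction n with
    | zero => exact Commute.one_left c
    | succ n ih =>
      rw [pwN]
      refine ih.mul_left ?_
      have h1 : Commute (h ^ (d * n)) c := by
        rw [pow_mul]
        exact hh.pow_left n
      exact (h1.mul_left (hu.pow_left _)).mul_left h1.inv_left
  exact key _ _

/-- Centrality of `Z`, generic case: `x` commutes with `z`, `h^d` commutes with `z` and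
`x 1` is a polynomial in the `x (d i)` modulo `Z`. -/
theorem comm_x_generic {t x z : G} (hZ : ∀ i j : ℤ, Commute (xx t z i) (xx t z j))
    {N : ℕ} (hN : 0 < N) (hord : t ^ N = 1) (hx0 : Commute x z) {d : ℕ}
    (ht : Commute (t ^ d) z) {f g : (ZMod p)[X]}
    (hy : xx t x 1 = pw p t x d f * pw p t z 1 g) (k : ℤ) : Commute x (xx t z k) := by
  have hzpw : ∀ (n : ℤ) (g : (ZMod p)[X]), Commute (pw p t z 1 g) (xx t z n) := by
    intro n g
    have key : ∀ (e : ℕ → ℕ) (m : ℕ), Commute (pwN t z 1 e m) (xx t z n) := by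
      intro e m
      induction m with
      | zero => exact Commute.one_left _
      | succ m ih =>
        rw [pwN]
        refine ih.mul_left ?_
        have h1 := hZ (1 * m : ℕ) n
        have e1 : t ^ (1 * m) * z ^ e m * (t ^ (1 * m))⁻¹ = (xx t z ((1 * m : ℕ) : ℤ)) ^ e m := by
          simp only [xx, zpow_natCast]
          rw [conj_pow]
        rw [e1]
        exact h1.pow_left _
    exact key _ _
  have hconjc : ∀ n : ℤ, Commute (t ^ d) (xx t z n) := by
    intro n
    have e : xx t z n = t ^ n * z * (t ^ n)⁻¹ := rfl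
    rw [e]
    have h1 : Commute (t ^ d) (t ^ n) := by
      rw [← zpow_natCast]
      exact Commute.zpow_zpow_self t _ _
    exact (h1.mul_right ht).mul_right h1.inv_right
  have step : ∀ n : ℤ, Commute x (xx t z n) → Commute x (xx t z (n - 1)) := by
    intro n h
    have h1 : Commute (pw p t x d f) (xx t z n) := pw_mem_centralizer d (hconjc n) h f
    have h2 : Commute (xx t x 1) (xx t z n) := by
      rw [hy]
      exact h1.mul_left (hzpw n g)
    have e1 : xx t x 1 = t * x * t⁻¹ := by simp [xx]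
    have e2 : xx t z (n - 1) = t⁻¹ * xx t z n * t := by
      have := conj_xx t z (-1) n
      rw [zpow_neg_one, inv_inv] at this
      rw [show n - 1 = -1 + n by ring, ← this]
    rw [e1] at h2
    rw [e2]
    show x * (t⁻¹ * xx t z n * t) = (t⁻¹ * xx t z n * t) * x
    have h3 : t * x * t⁻¹ * xx t z n = xx t z n * (t * x * t⁻¹) := h2
    calc x * (t⁻¹ * xx t z n * t) = t⁻¹ * (t * x * t⁻¹ * xx t z n) * t := by group
      _ = t⁻¹ * (xx t z n * (t * x * t⁻¹)) * t := by rw [h3]
      _ = _ := by group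
  have hneg : ∀ m : ℕ, Commute x (xx t z (-(m : ℤ))) := by
    intro m
    induction m with
    | zero => simpa [xx_zero] using hx0
    | succ m ih =>
      have := step _ ih
      convert this using 2
      push_cast
      ring
  -- periodicity
  have e0 : t ^ k = t ^ (k - N * (k.natAbs : ℤ)) := by
    have hN' : t ^ (N : ℤ) = 1 := by rwa [zpow_natCast]
    rw [sub_eq_add_neg, zpow_add, ← mul_neg, zpow_mul, hN', one_zpow, mul_one]
  have hle : k - N * (k.natAbs : ℤ) ≤ 0 := by
    have h1 : (1 : ℤ) ≤ N := by exact_mod_cast hN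
    have h2 : (0 : ℤ) ≤ k.natAbs := by positivity
    have h3 : k ≤ k.natAbs := Int.le_natAbs
    nlinarith
  obtain ⟨m, hm⟩ := Int.eq_ofNat_of_zero_le (neg_nonneg.2 hle)
  have e1 : xx t z k = xx t z (-(m : ℤ)) := by
    rw [← hm, neg_neg]
    simp only [xx]
    rw [← e0]
  rw [e1]
  exact hneg m

/-- The bound for the quotient. -/
theorem bound_Q {F : Type*} [Field F] [Algebra (ZMod p) F] [Finite F] {Q : Type*} [Group Q] {t u : Q}
    (hgen : closure ({t, u} : Set Q) = ⊤) {ξ : F} (hξ : ξ ≠ 0)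
    (hsurj : ∀ a : F, ∃ f : (ZMod p)[X], aeval ξ f = a)
    (hcomm : ∀ i j : ℤ, Commute (xx t u i) (xx t u j)) (hp : u ^ p = 1)
    (hm : pw p t u 1 (minpoly (ZMod p) ξ) = 1) {N : ℕ} (hN : 0 < N) (hord : t ^ N = 1) :
    Finite Q ∧ Nat.card Q ≤ Nat.card F * N := by
  obtain ⟨L, h1, h2, h3⟩ := exists_L ξ hsurj t u hcomm hp hm
  have hL1 : L 1 = u := by
    have := h3 1
    rwa [map_one, Cfsg.Agent.Lib.Presentations.Core.pw_one] at this
  have hL0 : L 0 = 1 := by simpa using h1 0 0
  have hLn : ∀ a, L (-a) = (L a)⁻¹ := by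
    intro a
    have := h1 a (-a)
    rw [add_neg_cancel, hL0] at this
    exact eq_inv_of_mul_eq_one_right this.symm
  have hconj : ∀ (k : ℤ) (a : F), t ^ k * L a * (t ^ k)⁻¹ = L (ξ ^ k * a) := zpow_conj hξ h2
  have hu : ∀ (k : ℤ), t ^ k * u = L (ξ ^ k) * t ^ k := by
    intro k
    rw [← hL1]
    have := hconj k 1
    rw [mul_one] at this
    rw [← this]
    group
  have hui : ∀ (k : ℤ), t ^ k * u⁻¹ = L (-ξ ^ k) * t ^ k := by
    intro k
    rw [← hL1, hLn]
    have := hconj k 1
    rw [mul_one] at this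
    rw [← this]
    group
  have hall : ∀ g : Q, ∃ (a : F) (k : ℤ), g = L a * t ^ k := by
    intro g
    have hg : g ∈ closure ({t, u} : Set Q) := by rw [hgen]; trivial
    induction hg using closure_induction_right with
    | one => exact ⟨0, 0, by simp [hL0]⟩
    | mul_right x _ y hy ih =>
      obtain ⟨a, k, rfl⟩ := ih
      rcases hy with rfl | hy
      · exact ⟨a, k + 1, by rw [zpow_add_one]; group⟩
      · rw [Set.mem_singleton_iff] at hy
        subst hy
        refine ⟨a + ξ ^ k, k, ?_⟩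
        rw [h1, mul_assoc, hu, mul_assoc]
    | mul_inv_cancel x _ y hy ih =>
      obtain ⟨a, k, rfl⟩ := ih
      rcases hy with rfl | hy
      · exact ⟨a, k - 1, by rw [zpow_sub_one]; group⟩
      · rw [Set.mem_singleton_iff] at hy
        subst hy
        refine ⟨a + -ξ ^ k, k, ?_⟩
        rw [h1, mul_assoc, hui, mul_assoc]
  let f : F × Fin N → Q := fun z => L z.1 * t ^ (z.2 : ℕ)
  have hf : Function.Surjective f := by
    intro g
    obtain ⟨a, k, rfl⟩ := hall g
    have e0 : t ^ k = t ^ (k % (N : ℤ)) := zpow_eq_zpow_emod k (by rwa [zpow_natCast])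
    obtain ⟨n, hn⟩ := Int.eq_ofNat_of_zero_le (Int.emod_nonneg k (by omega : (N : ℤ) ≠ 0))
    have hlt : (n : ℤ) < N := by
      rw [← hn]
      exact Int.emod_lt_of_pos k (by omega)
    refine ⟨(a, ⟨n, by exact_mod_cast hlt⟩), ?_⟩
    show L a * t ^ n = L a * t ^ k
    rw [e0, hn, zpow_natCast]
  refine ⟨Finite.of_surjective f hf, ?_⟩
  have := Nat.card_le_card_of_surjective f hf
  rwa [Nat.card_prod, Nat.card_fin] at this

/-- Commutativity from a Zech relation with shift one. -/
theorem comm_zech_one {t z : G} {b : ℤ} (hz : xx t z 0 = xx t z 1 * xx t z b)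
    (hc : Commute (xx t z 0) (xx t z 1)) (i j : ℤ) : Commute (xx t z i) (xx t z j) := by
  have := Cd_lattice hz hc 0 (j - i) i
  convert this using 2
  ring

/-- The main bound. -/
theorem bound_P {F F₀ : Type*} [Field F] [Algebra (ZMod p) F] [Finite F] [Field F₀]
    [Algebra (ZMod p) F₀] [Finite F₀] {P : Type u} [Group P] {t x z : P}
    (hgen : closure ({t, x} : Set P) = ⊤) {ξ : F} (hξ : ξ ≠ 0)
    (hsurj : ∀ a : F, ∃ f : (ZMod p)[X], aeval ξ f = a) {ξ₀ : F₀} (hξ₀ : ξ₀ ≠ 0)
    (hsurj₀ : ∀ a : F₀, ∃ f : (ZMod p)[X], aeval ξ₀ f = a)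
    {N : ℕ} (hN : 0 < N) (hord : t ^ N = 1)
    (hZc : ∀ i j : ℤ, Commute (xx t z i) (xx t z j)) (hzp : z ^ p = 1)
    (hzm : pw p t z 1 (minpoly (ZMod p) ξ₀) = 1)
    (hxZ : ∀ k : ℤ, Commute x (xx t z k))
    (hxp : ∃ g : (ZMod p)[X], x ^ p = pw p t z 1 g)
    (hxm : ∃ g : (ZMod p)[X], pw p t x 1 (minpoly (ZMod p) ξ) = pw p t z 1 g)
    (hQ : ∀ (Q : Type u) [Group Q] (φ : P →* Q), φ z = 1 →
      φ (pw p t x 1 (minpoly (ZMod p) ξ)) = 1 →
        ∀ i j : ℤ, Commute (xx (φ t) (φ x) i) (xx (φ t) (φ x) j)) :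
    Finite P ∧ Nat.card P ≤ Nat.card F₀ * (Nat.card F * N) := by
  obtain ⟨L, h1, h2, h3⟩ := exists_L ξ₀ hsurj₀ t z hZc hzp hzm
  have hL1 : L 1 = z := by
    have := h3 1
    rwa [map_one, Cfsg.Agent.Lib.Presentations.Core.pw_one] at this
  have hL0 : L 0 = 1 := by simpa using h1 0 0
  have hLn : ∀ a, L (-a) = (L a)⁻¹ := by
    intro a
    have := h1 a (-a)
    rw [add_neg_cancel, hL0] at this
    exact eq_inv_of_mul_eq_one_right this.symm
  have hconj : ∀ (k : ℤ) (a : F₀), t ^ k * L a * (t ^ k)⁻¹ = L (ξ₀ ^ k * a) := zpow_conj hξ₀ h2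
  set Z : Subgroup P := closure (Set.range (xx t z)) with hZ
  have hgenZ : ∀ k : ℤ, xx t z k ∈ Z := fun k => Subgroup.subset_closure ⟨k, rfl⟩
  have hpwZ : ∀ g : (ZMod p)[X], pw p t z 1 g ∈ Z := fun g =>
    pwN_mem t z Z _ _ (fun i _ => hgenZ i)
  have hZL : ∀ g ∈ Z, ∃ c, g = L c := by
    intro g hg
    induction hg using closure_induction with
    | mem y hy =>
      obtain ⟨k, rfl⟩ := hy
      refine ⟨ξ₀ ^ k * 1, ?_⟩
      rw [← hconj, hL1]
      rfl
    | one => exact ⟨0, hL0.symm⟩
    | mul y w _ _ hy hw =>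
      obtain ⟨a, rfl⟩ := hy
      obtain ⟨b, rfl⟩ := hw
      exact ⟨a + b, (h1 a b).symm⟩
    | inv y _ hy =>
      obtain ⟨a, rfl⟩ := hy
      exact ⟨-a, (hLn a).symm⟩
  have hLZ : ∀ c, L c ∈ Z := by
    intro c
    obtain ⟨f, rfl⟩ := hsurj₀ c
    rw [h3]
    exact hpwZ f
  -- normality
  have hconjZ : ∀ (l : ℤ), ∀ y ∈ Z, t ^ l * y * (t ^ l)⁻¹ ∈ Z := by
    intro l y hy
    obtain ⟨c, rfl⟩ := hZL y hy
    rw [hconj]
    exact hLZ _
  have hnorm : normalizer (Z : Set P) = ⊤ := by
    rw [eq_top_iff, ← hgen, closure_le]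
    rintro y (rfl | hy)
    · rw [SetLike.mem_coe, mem_normalizer_iff]
      intro h
      constructor
      · intro hh
        have := hconjZ 1 h hh
        simpa using this
      · intro hh
        have := hconjZ (-1) _ hh
        simpa [mul_assoc] using this
    · rw [Set.mem_singleton_iff] at hy
      subst hy
      rw [SetLike.mem_coe, mem_normalizer_iff]
      have hcm : ∀ h ∈ Z, y * h = h * y := by
        intro h hh
        have hle : Z ≤ centralizer {y} := by
          rw [hZ, closure_le]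
          rintro _ ⟨k, rfl⟩
          rw [SetLike.mem_coe, mem_centralizer_singleton_iff]
          exact (hxZ k).eq.symm
        have := hle hh
        rw [mem_centralizer_singleton_iff] at this
        exact this.symm
      intro h
      constructor
      · intro hh
        rw [hcm h hh]
        simpa using hh
      · intro hh
        have e1 := hcm _ hh
        have e2 : h = y * h * y⁻¹ := by
          have h5 : y * (y * h * y⁻¹) * y⁻¹ = y * h * y⁻¹ := by rw [e1]; group
          have h6 : y * (y * h * y⁻¹) * y⁻¹ = y * (y * h * y⁻¹ * y⁻¹) := by group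
          rw [h6] at h5
          have h7 := mul_left_cancel (a := y) (b := y * h * y⁻¹ * y⁻¹) (c := h * y⁻¹) (by
            rw [h5]; group)
          have h8 := mul_right_cancel h7
          exact h8.symm
        rw [e2]
        exact hh
  haveI hnormal : Z.Normal := by
    rw [← normalizer_eq_top_iff]
    exact hnorm
  let φ : P →* P ⧸ Z := QuotientGroup.mk' Z
  have hker : ∀ g ∈ Z, φ g = 1 := fun g hg => (QuotientGroup.eq_one_iff g).2 hg
  have hφz : φ z = 1 := hker z (by simpa [xx_zero] using hgenZ 0)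
  obtain ⟨g₁, hg₁⟩ := hxp
  obtain ⟨g₂, hg₂⟩ := hxm
  have hφp : (φ x) ^ p = 1 := by
    rw [← map_pow, hg₁]
    exact hker _ (hpwZ _)
  have hφm : φ (pw p t x 1 (minpoly (ZMod p) ξ)) = 1 := by
    rw [hg₂]
    exact hker _ (hpwZ _)
  have hcomm := hQ (P ⧸ Z) φ hφz hφm
  have hgenQ : closure ({φ t, φ x} : Set (P ⧸ Z)) = ⊤ := by
    rw [eq_top_iff]
    intro y _
    obtain ⟨g, rfl⟩ := QuotientGroup.mk'_surjective Z y
    have hg : g ∈ closure ({t, x} : Set P) := by rw [hgen]; trivial
    have hle : (closure ({t, x} : Set P)).map φ ≤ closure ({φ t, φ x} : Set (P ⧸ Z)) := by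
      rw [MonoidHom.map_closure, closure_le]
      rintro _ ⟨y, (rfl | hy), rfl⟩
      · exact Subgroup.subset_closure (by simp)
      · rw [Set.mem_singleton_iff] at hy
        subst hy
        exact Subgroup.subset_closure (by simp)
    exact hle ⟨g, hg, rfl⟩
  rw [map_pw] at hφm
  obtain ⟨hfinQ, hcardQ⟩ := bound_Q (F := F) hgenQ hξ hsurj hcomm hφp hφm hN
    (by rw [← map_pow, hord, map_one])
  let f₀ : F₀ → Z := fun c => ⟨L c, hLZ c⟩
  have hf₀ : Function.Surjective f₀ := by
    rintro ⟨g, hg⟩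
    obtain ⟨c, rfl⟩ := hZL g hg
    exact ⟨c, rfl⟩
  haveI hfinZ : Finite Z := Finite.of_surjective f₀ hf₀
  have hcardZ : Nat.card Z ≤ Nat.card F₀ := Nat.card_le_card_of_surjective f₀ hf₀
  refine ⟨Finite.of_subgroup_quotient Z, ?_⟩
  rw [Subgroup.card_eq_card_quotient_mul_card_subgroup Z, mul_comm]
  exact Nat.mul_le_mul hcardZ hcardQ

end Cfsg.Agent.Lib.PresSU.Abs
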