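import Cfsg.Agent.Lib.PresSU.Model

/-!
# Field facts for the presentation of `SU₃(q)`

`ζ` generates `F^×`, `τ = ζ^(2-q)` is the action of the torus on the first coordinate,
`μ = τ^(q-1)` has norm one. For `q ≠ 2, 5, 8`, `μ` generates the field over the prime field and
`(1 + μ) + (-μ) = 1` is a relation between powers of `τ`.
-/

set_option autoImplicit false
set_option linter.unusedSectionVars false
set_option linter.unusedVariables false
set_option linter.style.haveILetI false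
set_option linter.flexible false

namespace Cfsg.Agent.Lib.PresSU.Field

open Polynomial IntermediateField
open Cfsg.Agent.Lib.PresSU.Model Cfsg.Agent.Lib.Classical.Herm.Basic

variable {F : Type*} [Field F] [Fintype F] {q : ℕ}

lemma exists_zeta (hF : Fintype.card F = q ^ 2) :
    ∃ ζ : Fˣ, (∀ s : Fˣ, ∃ n : ℕ, s = ζ ^ n) ∧ orderOf ζ = q ^ 2 - 1 := by
  classical
  obtain ⟨g, hg⟩ := IsCyclic.exists_monoid_generator (α := Fˣ)
  refine ⟨g, ?_, ?_⟩
  · intro s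
    obtain ⟨n, hn⟩ := Submonoid.mem_powers_iff _ _ |>.1 (hg s)
    exact ⟨n, hn.symm⟩
  · have h2 : orderOf g = Nat.card Fˣ :=
      orderOf_eq_card_of_forall_mem_zpowers (fun y => by
        have := hg y
        exact Submonoid.powers_le_zpowers g this)
    rw [h2, Nat.card_eq_fintype_card, Fintype.card_units, hF]

section Gen

variable (hF : Fintype.card F = q ^ 2) {ζ : Fˣ} (hgen : ∀ s : Fˣ, ∃ n : ℕ, s = ζ ^ n)
  (hord : orderOf ζ = q ^ 2 - 1)

include hF hord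

lemma q_two : 2 ≤ q := two_le_q hF

lemma zeta_zpow {k : ℤ} (h : ζ ^ k = 1) : ((q : ℤ) - 1) * ((q : ℤ) + 1) ∣ k := by
  have h1 := orderOf_dvd_iff_zpow_eq_one.2 h
  rw [hord] at h1
  have hq := q_two hF hord
  have e : ((q ^ 2 - 1 : ℕ) : ℤ) = ((q : ℤ) - 1) * ((q : ℤ) + 1) := by
    rw [Nat.cast_sub (by nlinarith)]
    push_cast
    ring
  rwa [e] at h1

lemma cf_eq : cf q ζ = ζ ^ (2 - (q : ℤ)) := by
  rw [zpow_sub, cf]
  norm_cast

lemma cf_pow (n : ℕ) : (cf q ζ) ^ n = ζ ^ ((2 - (q : ℤ)) * n) := by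
  rw [cf_eq hF hord, zpow_mul, zpow_natCast]

/-- If `x ^ (q - 1) = 1` for a unit then it is a power of `ξ`. -/
lemma fixed_pow (hgen : ∀ s : Fˣ, ∃ n : ℕ, s = ζ ^ n) {c : Fˣ} (h : c ^ q = c) :
    ∃ j : ℕ, c = (ζ * ζ ^ q) ^ j := by
  have hq := q_two hF hord
  obtain ⟨n, rfl⟩ := hgen c
  have h1 : ζ ^ ((n : ℤ) * ((q : ℤ) - 1)) = 1 := by
    rw [zpow_mul, zpow_sub, zpow_one, zpow_natCast, zpow_natCast, h]
    simp
  have h2 := zeta_zpow hF hord h1
  have h3 : ((q : ℤ) + 1) ∣ n := by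
    have hq1 : (q : ℤ) - 1 ≠ 0 := by
      have : (2 : ℤ) ≤ q := by exact_mod_cast hq
      omega
    obtain ⟨e, he⟩ := h2
    refine ⟨e, ?_⟩
    have : ((q : ℤ) - 1) * n = ((q : ℤ) - 1) * (((q : ℤ) + 1) * e) := by
      rw [mul_comm ((q : ℤ) - 1) (n : ℤ), he]
      ring
    exact mul_left_cancel₀ hq1 this
  have h4 : (q + 1) ∣ n := by exact_mod_cast h3
  obtain ⟨j, rfl⟩ := h4
  refine ⟨j, ?_⟩
  rw [pow_mul, ← pow_succ']

lemma xi_eq : (cf q ζ) ^ (q + 1) = ζ * ζ ^ q := by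
  have hq := q_two hF hord
  apply Units.ext
  have h0 : (ζ : F) ≠ 0 := ζ.ne_zero
  have hq0 : (ζ : F) ^ q ≠ 0 := pow_ne_zero _ h0
  rw [pow_succ, Units.val_mul, Units.val_pow_eq_pow_val, coe_cf, div_pow, ← pow_mul, mul_comm 2 q,
    pow_mul, pow_q_pow_q hF]
  simp only [Units.val_mul, Units.val_pow_eq_pow_val]
  field_simp

/-- The element `μ`. -/
lemma mu_pow_dvd {l : ℕ} (h : ((cf q ζ) ^ (q - 1)) ^ l = 1) : (q + 1) ∣ 3 * l := by
  have hq := q_two hF hord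
  rw [← pow_mul, cf_pow hF hord] at h
  have h2 := zeta_zpow hF hord h
  have hq1 : (q : ℤ) - 1 ≠ 0 := by
    have : (2 : ℤ) ≤ q := by exact_mod_cast hq
    omega
  have e : (((q - 1) * l : ℕ) : ℤ) = ((q : ℤ) - 1) * l := by
    push_cast [Nat.cast_sub (by omega : 1 ≤ q)]
    ring
  rw [e] at h2
  obtain ⟨c, hc⟩ := h2
  have h3 : (2 - (q : ℤ)) * l = ((q : ℤ) + 1) * c := by
    have : ((q : ℤ) - 1) * ((2 - (q : ℤ)) * l) = ((q : ℤ) - 1) * (((q : ℤ) + 1) * c) := by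
      linear_combination hc
    exact mul_left_cancel₀ hq1 this
  have h4 : ((q : ℤ) + 1) ∣ ((3 * l : ℕ) : ℤ) := by
    refine ⟨c + l, ?_⟩
    push_cast
    linear_combination h3
  exact_mod_cast h4

lemma mu_pow_succ : ((cf q ζ) ^ (q - 1)) ^ (q + 1) = 1 := by
  classical
  have hq := q_two hF hord
  rw [← pow_mul]
  have e : (q - 1) * (q + 1) = q ^ 2 - 1 := by
    zify [show 1 ≤ q by omega, show 1 ≤ q ^ 2 by nlinarith]
    ring
  rw [e, ← hF, ← Fintype.card_units]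
  exact pow_card_eq_one

lemma mu_sq_ne (h2 : q ≠ 2) (h5 : q ≠ 5) : (((cf q ζ) ^ (q - 1)) ^ 2) ≠ 1 := by
  intro h
  have hq := q_two hF hord
  have h3 := mu_pow_dvd hF hord h
  have h4 := Nat.le_of_dvd (by norm_num) h3
  have h4' : q ≤ 5 := by omega
  interval_cases q <;> first | omega | (revert h3; decide)

lemma mu_ne (h2 : q ≠ 2) (h5 : q ≠ 5) : ((cf q ζ) ^ (q - 1)) ≠ 1 := by
  intro h
  apply mu_sq_ne hF hord h2 h5
  rw [h, one_pow]

end Gen

section Adjoin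

variable {p : ℕ} [Fact p.Prime] [Algebra (ZMod p) F]

/-- An element not in a proper subfield generates. -/
lemma adjoin_top (hF : Fintype.card F = q ^ 2) {x : F} (hx0 : x ≠ 0)
    (hcond : ∀ l r : ℕ, 2 ≤ l → 2 ≤ r → l ^ r = q ^ 2 → x ^ (l - 1) ≠ 1) (c : F) :
    ∃ f : (ZMod p)[X], aeval x f = c := by
  classical
  let L : IntermediateField (ZMod p) F := (ZMod p)⟮x⟯
  have hxL : x ∈ L := mem_adjoin_simple_self _ _
  letI : Fintype L := Fintype.ofFinite L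
  set l := Fintype.card L with hl
  have hl2 : 2 ≤ l := Fintype.one_lt_card
  set r := Module.finrank L F with hr
  have hcard : Fintype.card F = l ^ r := by
    rw [hl, hr]
    exact Module.card_eq_pow_finrank
  have hr1 : 0 < r := Module.finrank_pos
  have hpow : x ^ (l - 1) = 1 := by
    have h1 : (⟨x, hxL⟩ : L) ^ (l - 1) = 1 :=
      FiniteField.pow_card_sub_one_eq_one _ (by
        intro h
        exact hx0 (congrArg Subtype.val h))
    exact congrArg Subtype.val h1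
  have hr2 : r = 1 := by
    by_contra hne
    exact hcond l r hl2 (by omega) (by rw [← hcard, hF]) hpow
  have hcL : c ∈ L := by
    have hsurj : Function.Surjective (Subtype.val : L → F) := by
      have hinj : Function.Injective (Subtype.val : L → F) := Subtype.val_injective
      refine (hinj.bijective_of_nat_card_le ?_).2
      rw [Nat.card_eq_fintype_card, Nat.card_eq_fintype_card, hcard, hr2, pow_one]
    obtain ⟨y, rfl⟩ := hsurj c
    exact y.2
  have hadj : L.toSubalgebra = Algebra.adjoin (ZMod p) {x} :=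
    adjoin_simple_toSubalgebra_of_isAlgebraic (IsAlgebraic.of_finite _ _)
  have hc' : c ∈ Algebra.adjoin (ZMod p) {x} := by
    rw [← hadj]
    exact hcL
  rw [Algebra.adjoin_singleton_eq_range_aeval] at hc'
  obtain ⟨f, hf⟩ := hc'
  exact ⟨f, hf⟩

variable (hF : Fintype.card F = q ^ 2) {ζ : Fˣ} (hgen : ∀ s : Fˣ, ∃ n : ℕ, s = ζ ^ n)
  (hord : orderOf ζ = q ^ 2 - 1)

include hF hord

/-- `μ` generates the field. -/
lemma mu_gen (h2 : q ≠ 2) (h5 : q ≠ 5) (h8 : q ≠ 8) (c : F) :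
    ∃ f : (ZMod p)[X], aeval (((cf q ζ) ^ (q - 1) : Fˣ) : F) f = c := by
  have hq := q_two hF hord
  refine adjoin_top hF (Units.ne_zero _) ?_ c
  intro l r hl hr hlr hpow
  have hpow' : (((cf q ζ) ^ (q - 1)) ^ (l - 1) : Fˣ) = 1 := by
    apply Units.ext
    simpa using hpow
  have hd := mu_pow_dvd hF hord hpow'
  have hle := Nat.le_of_dvd (by omega) hd
  rcases Nat.lt_or_ge r 3 with hr3 | hr3
  · have hr' : r = 2 := by omega
    subst hr'
    have e : l = q := by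
      exact Nat.pow_left_injective (n := 2) (by norm_num) hlr
    subst e
    have h6 : (l + 1) ∣ 6 := by
      have e : 6 = 3 * (l + 1) - 3 * (l - 1) := by omega
      rw [e]
      exact Nat.dvd_sub (Dvd.intro_left 3 rfl) hd
    have := Nat.le_of_dvd (by norm_num) h6
    have h4' : l ≤ 5 := by omega
    interval_cases l <;> first | omega | (revert h6; decide)
  · have h1 : l ^ 3 ≤ q ^ 2 := by
      rw [← hlr]
      exact Nat.pow_le_pow_right (by omega) hr3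
    have h3 : q + 4 ≤ 3 * l := by omega
    have h4 : (q + 4) ^ 3 ≤ 27 * q ^ 2 := by
      calc (q + 4) ^ 3 ≤ (3 * l) ^ 3 := Nat.pow_le_pow_left h3 3
        _ = 27 * l ^ 3 := by ring
        _ ≤ 27 * q ^ 2 := by omega
    have h4' : ((q : ℤ) + 4) ^ 3 ≤ 27 * (q : ℤ) ^ 2 := by exact_mod_cast h4
    have hq8 : (q : ℤ) - 8 ≠ 0 := by
      intro h
      apply h8
      have : (q : ℤ) = 8 := by linarith
      exact_mod_cast this
    have h5' : 0 < ((q : ℤ) - 8) ^ 2 := by positivity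
    have hq0 : (0 : ℤ) < (q : ℤ) + 1 := by positivity
    have := mul_pos h5' hq0
    nlinarith

/-- `τ` generates the field. -/
lemma tau_gen (h2 : q ≠ 2) (h5 : q ≠ 5) (c : F) :
    ∃ f : (ZMod p)[X], aeval ((cf q ζ : Fˣ) : F) f = c := by
  by_cases h8 : q = 8
  · subst h8
    refine adjoin_top hF (Units.ne_zero _) ?_ c
    intro l r hl hr hlr hpow
    have hpow' : ((cf 8 ζ) ^ (l - 1) : Fˣ) = 1 := by
      apply Units.ext
      simpa using hpow
    rw [cf_pow hF hord] at hpow'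
    have hz := zeta_zpow hF hord hpow'
    have h21 : (21 : ℤ) ∣ ((l - 1 : ℕ) : ℤ) := by
      obtain ⟨e, he⟩ := hz
      have he' : -6 * ((l - 1 : ℕ) : ℤ) = 63 * e := by
        push_cast at he ⊢
        linarith
      refine ⟨-11 * e - ((l - 1 : ℕ) : ℤ), ?_⟩
      linarith
    have h21' : 21 ∣ l - 1 := by exact_mod_cast h21
    have hle := Nat.le_of_dvd (by omega) h21'
    have : 22 ^ 2 ≤ l ^ r := by
      calc 22 ^ 2 ≤ l ^ 2 := Nat.pow_le_pow_left (by omega) 2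
        _ ≤ l ^ r := Nat.pow_le_pow_right (by omega) hr
    rw [hlr] at this
    norm_num at this
  · obtain ⟨f, hf⟩ := mu_gen (p := p) hF hord h2 h5 h8 c
    refine ⟨f.comp (X ^ (q - 1)), ?_⟩
    rw [← hf, aeval_comp]
    simp

/-- Elements with `s^(q-1)` a power of `μ` are powers of `τ`. -/
lemma mem_tau_powers (hgen : ∀ s : Fˣ, ∃ n : ℕ, s = ζ ^ n) {s : Fˣ} {e : ℕ}
    (h : s ^ (q - 1) = ((cf q ζ) ^ e) ^ (q - 1)) : ∃ n : ℕ, s = (cf q ζ) ^ n := by
  have hq := q_two hF hord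
  have h1 : (s / (cf q ζ) ^ e) ^ q = s / (cf q ζ) ^ e := by
    have e2 : (s / (cf q ζ) ^ e) ^ (q - 1) = 1 := by rw [div_pow, h, div_self']
    have e3 : (s / (cf q ζ) ^ e) ^ q = (s / (cf q ζ) ^ e) ^ (q - 1) * (s / (cf q ζ) ^ e) := by
      rw [← pow_succ]
      congr 1
      omega
    rw [e3, e2, one_mul]
  obtain ⟨j, hj⟩ := fixed_pow hF hord hgen h1
  rw [← xi_eq hF hord, ← pow_mul] at hj
  refine ⟨(q + 1) * j + e, ?_⟩
  rw [pow_add, ← hj]
  exact (div_mul_cancel s _).symm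

/-- The Zech relation for `τ`. -/
theorem exists_zech_su (hgen : ∀ s : Fˣ, ∃ n : ℕ, s = ζ ^ n) (h2 : q ≠ 2) (h5 : q ≠ 5) (h8 : q ≠ 8) :
    ∃ (a b d : ℕ) (l n : ℤ) (g : (ZMod p)[X]), 0 < d ∧ n * b + l * a = d ∧
      ((cf q ζ : Fˣ) : F) ^ a + ((cf q ζ : Fˣ) : F) ^ b = 1 ∧
      aeval (((cf q ζ : Fˣ) : F) ^ d) g = (cf q ζ : Fˣ) ∧
      (((cf q ζ : Fˣ) : F) ^ a) ^ q ≠ ((cf q ζ : Fˣ) : F) ^ a := by
  have hq := q_two hF hord
  set τ : Fˣ := cf q ζ with hτ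
  set μ : Fˣ := τ ^ (q - 1) with hμ
  have hμs : μ ^ (q + 1) = 1 := mu_pow_succ hF hord
  have hμ2 : μ ^ 2 ≠ 1 := mu_sq_ne hF hord h2 h5
  have hμq : (μ : F) ^ q = (μ : F)⁻¹ := by
    have h1 : (μ : F) ^ (q + 1) = 1 := by
      have := congrArg Units.val hμs
      simpa using this
    rw [pow_succ] at h1
    exact eq_inv_of_mul_eq_one_left h1
  have hμ0 : (μ : F) ≠ 0 := μ.ne_zero
  have hμ2F : (μ : F) ^ 2 ≠ 1 := by
    intro h
    apply hμ2
    apply Units.ext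
    simpa using h
  have hs₁ : 1 + (μ : F) ≠ 0 := by
    intro h
    apply hμ2F
    have : (μ : F) = -1 := by linear_combination h
    rw [this]
    ring
  let s₁ : Fˣ := Units.mk0 _ hs₁
  let s₂ : Fˣ := -μ
  have hs₁q : (1 + (μ : F)) ^ q = 1 + (μ : F)⁻¹ := by
    rw [pow_q_add hF, one_pow, hμq]
  have e₁ : s₁ ^ (q - 1) = (τ ^ q) ^ (q - 1) := by
    apply Units.ext
    have e2 : (τ ^ q) ^ (q - 1) = μ ^ q := by
      rw [hμ, ← pow_mul, ← pow_mul, mul_comm]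
    rw [e2]
    simp only [Units.val_pow_eq_pow_val]
    have e3 : ((s₁ : Fˣ) : F) = 1 + μ := rfl
    rw [e3, hμq]
    have e4 : (1 + (μ : F)) ^ (q - 1) * (1 + (μ : F)) = (1 + (μ : F)) ^ q := by
      rw [← pow_succ]
      congr 1
      omega
    have e5 : (1 + (μ : F)) ^ (q - 1) * (1 + (μ : F)) = (μ : F)⁻¹ * (1 + (μ : F)) := by
      rw [e4, hs₁q]
      field_simp
      ring
    exact mul_right_cancel₀ hs₁ e5
  have hneg : (-1 : F) ^ (q - 1) = 1 := by
    have e1 : (-1 : F) ^ q = -1 := by rw [pow_q_neg hF, one_pow]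
    have e2 : (-1 : F) ^ (q - 1) * (-1) = (-1) ^ q := by
      rw [← pow_succ]
      congr 1
      omega
    rw [e1] at e2
    have e3 : (-1 : F) ≠ 0 := by simp
    exact mul_right_cancel₀ e3 (by rw [e2, one_mul])
  have e₂ : s₂ ^ (q - 1) = (τ ^ (q - 1)) ^ (q - 1) := by
    apply Units.ext
    simp only [Units.val_pow_eq_pow_val, s₂, Units.val_neg]
    rw [neg_pow, hneg, one_mul]
    simp [hμ]
  obtain ⟨a, ha⟩ := mem_tau_powers hF hord hgen e₁
  obtain ⟨b, hb⟩ := mem_tau_powers hF hord hgen e₂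
  have ha' : ((τ : Fˣ) : F) ^ a = 1 + μ := by
    have := congrArg Units.val ha
    simpa [s₁] using this.symm
  have hb' : ((τ : Fˣ) : F) ^ b = -μ := by
    have := congrArg Units.val hb
    simpa [s₂] using this.symm
  have hsum : ((τ : Fˣ) : F) ^ a + ((τ : Fˣ) : F) ^ b = 1 := by
    rw [ha', hb']
    ring
  set d := Nat.gcd a b with hd
  have hd0 : 0 < d := by
    rw [hd, Nat.pos_iff_ne_zero]
    intro h0
    rw [Nat.gcd_eq_zero_iff] at h0
    rw [h0.1, h0.2, pow_zero] at hsum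
    have : (1 : F) = 0 := by linear_combination hsum
    exact one_ne_zero this
  have hbez : (d : ℤ) = a * Nat.gcdA a b + b * Nat.gcdB a b := Nat.gcd_eq_gcd_ab a b
  obtain ⟨f₀, hf₀⟩ := mu_gen (p := p) hF hord h2 h5 h8 (τ : F)
  obtain ⟨a', ha''⟩ : d ∣ a := Nat.gcd_dvd_left a b
  have hμα : (μ : F) = aeval (((τ : Fˣ) : F) ^ d) (X ^ a' - 1 : (ZMod p)[X]) := by
    simp only [map_sub, map_pow, aeval_X, map_one]
    rw [← pow_mul, ← ha'', ha']
    ring
  refine ⟨a, b, d, Nat.gcdA a b, Nat.gcdB a b, f₀.comp (X ^ a' - 1), hd0, ?_, hsum, ?_, ?_⟩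
  · rw [hbez]
    ring
  · rw [aeval_comp, ← hμα]
    exact hf₀
  · rw [ha', hs₁q]
    intro h
    apply hμ2F
    have h3 : (μ : F)⁻¹ = μ := by linear_combination h
    have h4 : (μ : F)⁻¹ * μ = 1 := inv_mul_cancel₀ hμ0
    rw [h3] at h4
    rw [pow_two]
    exact h4

end Adjoin

section Nu

variable (hF : Fintype.card F = q ^ 2) {ζ : Fˣ} (hgen : ∀ s : Fˣ, ∃ n : ℕ, s = ζ ^ n)
  (hord : orderOf ζ = q ^ 2 - 1)

include hF hord

lemma nu_coe (k : ℕ) : (((ζ : F) ^ q / ζ) ^ k : F) = (ζ ^ ((q : ℤ) - 1) : Fˣ) ^ k := by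
  have h0 : (ζ : F) ≠ 0 := ζ.ne_zero
  rw [zpow_sub, zpow_one, zpow_natCast]
  simp [div_eq_mul_inv]

lemma nu_ord (k : ℕ) (h1 : 1 ≤ k) (hk : k ≤ q) : (((ζ : F) ^ q / ζ) ^ k : F) ≠ 1 := by
  have hq := q_two hF hord
  intro h
  rw [nu_coe hF hord] at h
  have h2 : (ζ ^ ((q : ℤ) - 1)) ^ k = 1 := by
    apply Units.ext
    simpa using h
  rw [← zpow_natCast, ← zpow_mul] at h2
  obtain ⟨c, hc⟩ := zeta_zpow hF hord h2
  have hq1 : (q : ℤ) - 1 ≠ 0 := by
    have : (2 : ℤ) ≤ q := by exact_mod_cast hq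
    omega
  have h3 : (k : ℤ) = ((q : ℤ) + 1) * c := by
    have : ((q : ℤ) - 1) * (k : ℤ) = ((q : ℤ) - 1) * (((q : ℤ) + 1) * c) := by
      linear_combination hc
    exact mul_left_cancel₀ hq1 this
  have h4 : ((q : ℤ) + 1) ∣ k := ⟨c, h3⟩
  have h5 : (q + 1) ∣ k := by exact_mod_cast h4
  have := Nat.le_of_dvd (by omega) h5
  omega

lemma nu_gen (hgen : ∀ s : Fˣ, ∃ n : ℕ, s = ζ ^ n) (ν : F) (h0 : ν ≠ 0) (hq' : ν ^ q = ν⁻¹)
    (h1 : ν ≠ 1) : ∃ k : ℕ, 1 ≤ k ∧ k ≤ q ∧ ν = ((ζ : F) ^ q / ζ) ^ k := by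
  have hq := q_two hF hord
  obtain ⟨n, hn⟩ := hgen (Units.mk0 ν h0)
  have hν : ν = (ζ : F) ^ n := by
    have := congrArg Units.val hn
    simpa using this
  have h2 : ζ ^ (((n : ℤ)) * ((q : ℤ) + 1)) = 1 := by
    apply Units.ext
    rw [zpow_mul, zpow_natCast, ← hn]
    have e : ((q : ℤ) + 1) = ((q + 1 : ℕ) : ℤ) := by push_cast; ring
    rw [e, zpow_natCast]
    simp only [Units.val_pow_eq_pow_val, Units.val_mk0, Units.val_one]
    rw [pow_succ, hq']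
    exact inv_mul_cancel₀ h0
  obtain ⟨c, hc⟩ := zeta_zpow hF hord h2
  have hq1 : (q : ℤ) + 1 ≠ 0 := by positivity
  have h3 : (n : ℤ) = ((q : ℤ) - 1) * c := by
    have : (n : ℤ) * ((q : ℤ) + 1) = ((q : ℤ) - 1) * c * ((q : ℤ) + 1) := by
      linear_combination hc
    exact mul_right_cancel₀ hq1 this
  -- reduce modulo `q + 1`
  set j : ℕ := (c % ((q : ℤ) + 1)).toNat with hj
  have hj0 : (j : ℤ) = c % ((q : ℤ) + 1) := Int.toNat_of_nonneg (Int.emod_nonneg _ hq1)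
  have hjlt : (j : ℤ) < (q : ℤ) + 1 := by
    rw [hj0]
    exact Int.emod_lt_of_pos _ (by positivity)
  have hνu : Units.mk0 ν h0 = (ζ ^ ((q : ℤ) - 1)) ^ j := by
    rw [hn, ← zpow_natCast, ← zpow_natCast, ← zpow_mul]
    have hs : ζ ^ (((q : ℤ) - 1) * ((q : ℤ) + 1)) = 1 := by
      have e : ((q : ℤ) - 1) * ((q : ℤ) + 1) = ((q ^ 2 - 1 : ℕ) : ℤ) := by
        rw [Nat.cast_sub (by nlinarith)]
        push_cast
        ring
      rw [e, zpow_natCast, ← hord]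
      exact pow_orderOf_eq_one ζ
    have e2 : (n : ℤ) = ((q : ℤ) - 1) * (j : ℤ) + ((q : ℤ) - 1) * ((q : ℤ) + 1) * (c / ((q : ℤ) + 1)) := by
      rw [h3, hj0]
      have := Int.emod_add_mul_ediv c ((q : ℤ) + 1)
      nth_rewrite 1 [← this]
      ring
    rw [e2, zpow_add, zpow_mul ζ (((q : ℤ) - 1) * ((q : ℤ) + 1)), hs, one_zpow, mul_one]
  have hνj : ν = (((ζ : F) ^ q / ζ) ^ j : F) := by
    rw [nu_coe hF hord]
    have := congrArg Units.val hνu
    simpa using this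
  refine ⟨j, ?_, by omega, hνj⟩
  by_contra hlt
  have : j = 0 := by omega
  rw [this, pow_zero] at hνj
  exact h1 hνj

/-- The norm of `ζ`. -/
lemma xi_ne_one (h3 : 3 ≤ q) : (ζ : F) * (ζ : F) ^ q ≠ 1 := by
  intro h
  have h1 : ζ ^ (((q + 1 : ℕ)) : ℤ) = 1 := by
    apply Units.ext
    rw [zpow_natCast, pow_succ']
    simpa using h
  obtain ⟨c, hc⟩ := zeta_zpow hF hord h1
  push_cast at hc
  have h4 : (1 : ℤ) = ((q : ℤ) - 1) * c := by
    have hq1 : (q : ℤ) + 1 ≠ 0 := by positivity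
    apply mul_right_cancel₀ hq1
    linear_combination hc
  have h5 : ((q : ℤ) - 1) ∣ 1 := ⟨c, h4⟩
  have h6 := Int.le_of_dvd (by norm_num) h5
  have : (3 : ℤ) ≤ q := by exact_mod_cast h3
  omega

lemma xi_fixed : ((ζ : F) * (ζ : F) ^ q) ^ q = (ζ : F) * (ζ : F) ^ q := by
  rw [mul_pow, pow_q_pow_q hF, mul_comm]

/-- Zech relation for `ξ`. -/
lemma xi_zech (hgen : ∀ s : Fˣ, ∃ n : ℕ, s = ζ ^ n) (h3 : 3 ≤ q) :
    ∃ b : ℕ, (ζ : F) * (ζ : F) ^ q + ((ζ : F) * (ζ : F) ^ q) ^ b = 1 := by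
  have h1 := xi_ne_one hF hord h3
  have h2 : 1 - (ζ : F) * (ζ : F) ^ q ≠ 0 := sub_ne_zero.2 h1.symm
  have hfix : (Units.mk0 _ h2 : Fˣ) ^ q = Units.mk0 _ h2 := by
    apply Units.ext
    simp only [Units.val_pow_eq_pow_val, Units.val_mk0]
    rw [pow_q_sub hF, one_pow, xi_fixed hF hord]
  obtain ⟨j, hj⟩ := fixed_pow hF hord hgen hfix
  refine ⟨j, ?_⟩
  have := congrArg Units.val hj
  simp only [Units.val_mk0, Units.val_pow_eq_pow_val, Units.val_mul] at this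
  rw [← this]
  ring

/-- Trace zero elements are multiples of a given one by polynomials in `ξ`. -/
lemma trace_zero_word {p : ℕ} [Fact p.Prime] [Algebra (ZMod p) F]
    (hgen : ∀ s : Fˣ, ∃ n : ℕ, s = ζ ^ n) {β : F} (hβ : β ≠ 0)
    (hβq : β + β ^ q = 0) {c : F} (hc : c + c ^ q = 0) :
    ∃ g : (ZMod p)[X], aeval ((ζ : F) * (ζ : F) ^ q) g * β = c := by
  by_cases h0 : c = 0
  · exact ⟨0, by simp [h0]⟩
  have e1 : c ^ q = -c := by linear_combination hc
  have e2 : β ^ q = -β := by linear_combination hβq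
  have h2 : c / β ≠ 0 := div_ne_zero h0 hβ
  have hfix : (Units.mk0 _ h2 : Fˣ) ^ q = Units.mk0 _ h2 := by
    apply Units.ext
    simp only [Units.val_pow_eq_pow_val, Units.val_mk0]
    rw [div_pow, e1, e2, neg_div_neg_eq]
  obtain ⟨j, hj⟩ := fixed_pow hF hord hgen hfix
  refine ⟨X ^ j, ?_⟩
  have := congrArg Units.val hj
  simp only [Units.val_mk0, Units.val_pow_eq_pow_val, Units.val_mul] at this
  simp only [map_pow, aeval_X]
  rw [← this]
  field_simp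

end Nu

section Fixed

variable {p : ℕ} [Fact p.Prime] [Algebra (ZMod p) F]

/-- Polynomials over the prime field commute with the `q`-power map. -/
lemma aeval_pow_q (hF : Fintype.card F = q ^ 2) (x : F) (f : (ZMod p)[X]) :
    (aeval x f) ^ q = aeval (x ^ q) f := by
  have h1 := Polynomial.hom_eval₂ f (algebraMap (ZMod p) F) (sigma hF) x
  have h2 : (sigma hF).comp (algebraMap (ZMod p) F) = algebraMap (ZMod p) F := RingHom.ext_zmod _ _
  rw [h2] at h1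
  simpa [aeval_def] using h1

/-- The subfield generated by a fixed element consists of fixed elements. -/
lemma adjoin_fixed (hF : Fintype.card F = q ^ 2) {ξ : F} (hξ : ξ ^ q = ξ) (c : (ZMod p)⟮ξ⟯) :
    (c : F) ^ q = c ∧ ∃ f : (ZMod p)[X], aeval ξ f = c := by
  have hadj : ((ZMod p)⟮ξ⟯).toSubalgebra = Algebra.adjoin (ZMod p) {ξ} :=
    adjoin_simple_toSubalgebra_of_isAlgebraic (IsAlgebraic.of_finite _ _)
  have hc : (c : F) ∈ Algebra.adjoin (ZMod p) {ξ} := by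
    rw [← hadj]
    exact c.2
  rw [Algebra.adjoin_singleton_eq_range_aeval] at hc
  obtain ⟨f, hf⟩ := hc
  have hf' : aeval ξ f = (c : F) := hf
  refine ⟨?_, f, hf'⟩
  rw [← hf', aeval_pow_q hF, hξ]

/-- Polynomials in the generator of the subfield. -/
lemma adjoin_surj (hF : Fintype.card F = q ^ 2) {ξ : F} (hξ : ξ ^ q = ξ) (c : (ZMod p)⟮ξ⟯) :
    ∃ f : (ZMod p)[X], aeval (⟨ξ, mem_adjoin_simple_self _ _⟩ : (ZMod p)⟮ξ⟯) f = c := by
  obtain ⟨-, f, hf⟩ := adjoin_fixed hF hξ c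
  refine ⟨f, Subtype.ext ?_⟩
  have := Polynomial.aeval_algHom_apply (((ZMod p)⟮ξ⟯).val) (⟨ξ, mem_adjoin_simple_self _ _⟩ : (ZMod p)⟮ξ⟯) f
  simp only [IntermediateField.val_mk] at this
  rw [← hf, this]
  rfl

/-- Coercion of aeval. -/
lemma coe_aeval {ξ : F} (f : (ZMod p)[X]) :
    ((aeval (⟨ξ, mem_adjoin_simple_self _ _⟩ : (ZMod p)⟮ξ⟯) f : (ZMod p)⟮ξ⟯) : F) = aeval ξ f := by
  have := Polynomial.aeval_algHom_apply (((ZMod p)⟮ξ⟯).val) (⟨ξ, mem_adjoin_simple_self _ _⟩ : (ZMod p)⟮ξ⟯) f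
  simp only [IntermediateField.val_mk] at this
  rw [this]
  rfl

end Fixed


end Cfsg.Agent.Lib.PresSU.Field
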