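import Cfsg.Agent.Lib.PresSU.Abs
import Cfsg.Agent.Lib.PresSU.Field

/-!
# A presentation-like list of relators for the Borel subgroup of `SU₃(q)`
-/

set_option autoImplicit false
set_option linter.unusedSectionVars false
set_option linter.unusedVariables false
set_option linter.style.haveILetI false
set_option linter.flexible false

namespace Cfsg.Agent.Lib.PresSU.Borel

open Polynomial Subgroup IntermediateField
open Cfsg.Agent.Lib.Presentations.Additive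
open Cfsg.Agent.Lib.Presentations.Odd (map_xx pw_mem_range)
open Cfsg.Agent.Lib.PresSU.Model Cfsg.Agent.Lib.Classical.Herm.Basic
open Cfsg.Agent.Lib.PresSU.Abs Cfsg.Agent.Lib.PresSU.Field

universe u

/-- Commutators. -/
def cm {G : Type*} [Group G] (a b : G) : G := a * b * a⁻¹ * b⁻¹

lemma map_cm {G G' : Type*} [Group G] [Group G'] (φ : G →* G') (a b : G) :
    φ (cm a b) = cm (φ a) (φ b) := by
  simp [cm]

lemma commute_of_cm {G : Type*} [Group G] {a b : G} (h : cm a b = 1) : Commute a b := by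
  have h1 : a * b * a⁻¹ * b⁻¹ = 1 := h
  have h2 := mul_inv_eq_one.1 h1
  exact mul_inv_eq_iff_eq_mul.1 h2

lemma cm_of_commute {G : Type*} [Group G] {a b : G} (h : Commute a b) : cm a b = 1 := by
  have h1 : a * b = b * a := h
  simp [cm, h1]

/-- The commutator `z`. -/
def zz {G : Type*} [Group G] (t x : G) (a : ℕ) : G := cm x (xx t x a)

lemma map_zz {G G' : Type*} [Group G] [Group G'] (φ : G →* G') (t x : G) (a : ℕ) :
    φ (zz t x a) = zz (φ t) (φ x) a := by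
  simp [zz, map_cm, map_xx]

lemma pw_one_u {G : Type*} [Group G] {p : ℕ} (h : G) (d : ℕ) (f : (ZMod p)[X]) :
    pw p h (1 : G) d f = 1 := by
  have key : ∀ (c : ℕ → ℕ) (n : ℕ), pwN h (1 : G) d c n = 1 := by
    intro c n
    induction n with
    | zero => rfl
    | succ n ih => simp [pwN, ih]
  exact key _ _

/-- Generators. -/
abbrev T₂ : FreeGroup (Fin 2) := FreeGroup.of 0
/-- Generators. -/
abbrev X₂ : FreeGroup (Fin 2) := FreeGroup.of 1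

section Model

variable {F : Type*} [Field F] [Fintype F] {q : ℕ} (hF : Fintype.card F = q ^ 2)

lemma cf_zpow (s : Fˣ) (k : ℤ) : cf q (s ^ k) = (cf q s) ^ k := by
  unfold cf
  rw [div_zpow]
  congr 1 <;> rw [← zpow_natCast, ← zpow_natCast, ← zpow_mul, ← zpow_mul, mul_comm]

include hF

lemma xx_HS (s : Fˣ) (a β : F) (k : ℤ) :
    xx (HS q s) (XS q a β) k = XS q ((cf q s : F) ^ k * a) (((s : F) * (s : F) ^ q) ^ k * β) := by
  unfold xx
  rw [← HS_zpow, HS_conj hF, cf_zpow]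
  simp only [Units.val_zpow_eq_zpow_val]
  rw [mul_zpow]
  congr 2
  congr 1
  rw [← zpow_natCast, ← zpow_natCast, ← zpow_mul, ← zpow_mul, mul_comm]

/-- The elements with a given first coordinate. -/
def UM (q : ℕ) (a : F) (g : S3 F) : Prop := ∃ β, Ctr q a β ∧ g = XS q a β

omit hF in
lemma UM.xs {a β : F} (h : Ctr q a β) : UM q a (XS q a β) := ⟨β, h, rfl⟩

lemma UM.one : UM q (0 : F) 1 := ⟨0, Ctr.zero hF, (XS_zero hF).symm⟩

lemma UM.mul {a a' : F} {g g' : S3 F} (h : UM q a g) (h' : UM q a' g') : UM q (a + a') (g * g') := by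
  obtain ⟨β, hc, rfl⟩ := h
  obtain ⟨β', hc', rfl⟩ := h'
  exact ⟨_, hc.mul hF hc', XS_mul hF _ _ _ _⟩

lemma UM.pow {a : F} {g : S3 F} (h : UM q a g) (c : ℕ) : UM q ((c : F) * a) (g ^ c) := by
  induction c with
  | zero => simpa using UM.one hF
  | succ c ih =>
    rw [pow_succ]
    have := UM.mul hF ih h
    convert this using 1
    push_cast
    ring

lemma UM.conj {a : F} {g : S3 F} (h : UM q a g) (s : Fˣ) :
    UM q ((cf q s : F) * a) (HS q s * g * (HS q s)⁻¹) := by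
  obtain ⟨β, hc, rfl⟩ := h
  exact ⟨_, hc.conj hF s, HS_conj hF _ _ _⟩

lemma UM.inv {a : F} {g : S3 F} (h : UM q a g) : UM q (-a) g⁻¹ := by
  obtain ⟨β, hc, rfl⟩ := h
  exact ⟨_, hc.inv hF, XS_inv hF _ _⟩

lemma UM_pwN {u : S3 F} {a₀ : F} (hu : UM q a₀ u) (s : Fˣ) (d : ℕ) (c : ℕ → ℕ) (n : ℕ) :
    UM q (∑ i ∈ Finset.range n, (c i : F) * (((cf q s : F) ^ d) ^ i * a₀))
      (pwN (HS q s) u d c n) := by
  induction n with
  | zero => simpa [pwN] using UM.one hF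
  | succ n ih =>
    rw [pwN, Finset.sum_range_succ]
    refine UM.mul hF ih ?_
    have h1 := (hu.pow hF (c n)).conj hF (s ^ (d * n))
    rw [HS_pow] at h1
    convert h1 using 1
    have : ((cf q (s ^ (d * n)) : Fˣ) : F) = ((cf q s : F) ^ d) ^ n := by
      have := cf_zpow (q := q) s ((d * n : ℕ) : ℤ)
      rw [zpow_natCast, zpow_natCast] at this
      rw [this, pow_mul]
      simp
    rw [this]
    ring

lemma UM_pw {p : ℕ} [Fact p.Prime] [Algebra (ZMod p) F] {u : S3 F} {a₀ : F} (hu : UM q a₀ u)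
    (s : Fˣ) (d : ℕ) (f : (ZMod p)[X]) :
    UM q (aeval ((cf q s : F) ^ d) f * a₀) (pw p (HS q s) u d f) := by
  have := UM_pwN hF hu s d (fun i => (f.coeff i).val) (f.natDegree + 1)
  unfold pw
  convert this using 1
  rw [aeval_eq_sum_range, Finset.sum_mul]
  refine Finset.sum_congr rfl fun i _ => ?_
  rw [Algebra.smul_def, ← map_natCast (algebraMap (ZMod p) F), ZMod.natCast_zmod_val]
  ring

/-- The words in the central elements. -/
lemma pw_HS_Z {p : ℕ} [Fact p.Prime] [Algebra (ZMod p) F] (s : Fˣ) (β : F) (g : (ZMod p)[X]) :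
    pw p (HS q s) (XS q 0 β) 1 g = XS q 0 (aeval ((s : F) * (s : F) ^ q) g * β) := by
  have hadd : ∀ x y : F, XS q 0 (x + y) = XS q 0 x * XS q 0 y := by
    intro x y
    rw [XS_mul hF, add_zero]
    simp
  have hconj : ∀ y : F, HS q s * XS q 0 y * (HS q s)⁻¹ =
      XS q 0 (LinearMap.mulLeft (ZMod p) ((s : F) * (s : F) ^ q) y) := by
    intro y
    rw [HS_conj hF, mul_zero]
    rfl
  have h1 := pw_eq (p := p) (LinearMap.mulLeft (ZMod p) ((s : F) * (s : F) ^ q)) β (XS q 0)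
    hadd (HS q s) hconj 1 g
  rw [h1, pow_one]
  have h3 : aeval (LinearMap.mulLeft (ZMod p) ((s : F) * (s : F) ^ q)) g =
      LinearMap.mulLeft (ZMod p) (aeval ((s : F) * (s : F) ^ q) g) :=
    Polynomial.aeval_algHom_apply (Algebra.lmul (ZMod p) F) ((s : F) * (s : F) ^ q) g
  rw [h3]
  rfl

/-- Root elements commutator. -/
lemma cm_XS (a β a' β' : F) : cm (XS q a β) (XS q a' β') = XS q 0 (a * a' ^ q - a' * a ^ q) := by
  have e : cm (XS q a β) (XS q a' β') = XS q a β * XS q a' β' * (XS q a' β' * XS q a β)⁻¹ := by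
    simp [cm, mul_assoc]
  rw [e, XS_mul hF, XS_mul hF, XS_inv hF, XS_mul hF, pow_q_add hF, pow_q_neg hF, pow_q_add hF]
  congr 1 <;> ring

/-- The element of the centre commutes with root elements. -/
lemma XS_center_comm (a β c : F) : Commute (XS q a β) (XS q 0 c) := by
  show XS q a β * XS q 0 c = XS q 0 c * XS q a β
  rw [XS_mul hF, XS_mul hF, zero_pow (Cfsg.Agent.Lib.Classical.Herm.SU3Gen.q_ne_zero hF)]
  congr 1 <;> ring

end Model

section Ev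

variable {F : Type*} [Field F] [Fintype F] {q : ℕ} (hF : Fintype.card F = q ^ 2) {p : ℕ}
  [Fact p.Prime] [Algebra (ZMod p) F] {ζ : Fˣ} {κ : F}

/-- Evaluation. -/
noncomputable def ev₂ (q : ℕ) (ζ : Fˣ) (κ : F) : FreeGroup (Fin 2) →* S3 F :=
  FreeGroup.lift ![HS q ζ, XS q 1 κ]

@[simp] lemma ev₂_T : ev₂ q ζ κ T₂ = HS q ζ := by simp [ev₂]
@[simp] lemma ev₂_X : ev₂ q ζ κ X₂ = XS q 1 κ := by simp [ev₂]

omit hF in
lemma char_zero_p : ((p : ℕ) : F) = 0 := by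
  rw [← map_natCast (algebraMap (ZMod p) F), ZMod.natCast_self, map_zero]

include hF

lemma ev_xx (k : ℤ) : ev₂ q ζ κ (xx T₂ X₂ k) =
    XS q (((cf q ζ : Fˣ) : F) ^ k * 1) (((ζ : F) * (ζ : F) ^ q) ^ k * κ) := by
  rw [map_xx, ev₂_T, ev₂_X, xx_HS hF]

/-- The central element. -/
def βz (q : ℕ) (ζ : Fˣ) (a : ℕ) : F := (((cf q ζ : Fˣ) : F) ^ a) ^ q - ((cf q ζ : Fˣ) : F) ^ a

lemma βz_trace (a : ℕ) : βz q ζ a + (βz q ζ a) ^ q = 0 := by
  unfold βz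
  rw [pow_q_sub hF, pow_q_pow_q hF]
  ring

lemma ev_zz (a : ℕ) : ev₂ q ζ κ (zz T₂ X₂ a) = XS q 0 (βz q ζ a) := by
  rw [zz, map_cm, ev₂_X, show ((a : ℕ) : ℤ) = a from rfl, ev_xx hF, cm_XS hF]
  simp [βz]

lemma ev_pw_z (a : ℕ) (g : (ZMod p)[X]) : ev₂ q ζ κ (pw p T₂ (zz T₂ X₂ a) 1 g) =
    XS q 0 (aeval ((ζ : F) * (ζ : F) ^ q) g * βz q ζ a) := by
  rw [map_pw, ev₂_T, ev_zz hF, pw_HS_Z hF]

lemma ev_xxz (a : ℕ) (k : ℤ) : ev₂ q ζ κ (xx T₂ (zz T₂ X₂ a) k) =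
    XS q 0 (((ζ : F) * (ζ : F) ^ q) ^ k * βz q ζ a) := by
  rw [map_xx, ev₂_T, ev_zz hF, xx_HS hF]
  simp

lemma UM_ev_X (hκ : Ctr q 1 κ) : UM q (1 : F) (ev₂ q ζ κ X₂) := by
  rw [ev₂_X]
  exact UM.xs hκ

lemma UM_ev_xx (hκ : Ctr q 1 κ) (k : ℕ) :
    UM q (((cf q ζ : Fˣ) : F) ^ k) (ev₂ q ζ κ (xx T₂ X₂ (k : ℤ))) := by
  rw [map_xx, ev₂_T, ev₂_X]
  have h1 := (UM.xs hκ).conj hF (ζ ^ k)
  rw [HS_pow] at h1
  have h2 : ((cf q (ζ ^ k) : Fˣ) : F) = ((cf q ζ : Fˣ) : F) ^ k := by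
    have := cf_zpow (q := q) ζ (k : ℤ)
    rw [zpow_natCast, zpow_natCast] at this
    rw [this]
    simp
  rw [h2, mul_one] at h1
  simpa [xx] using h1

lemma UM_ev_pw (hκ : Ctr q 1 κ) (d : ℕ) (f : (ZMod p)[X]) :
    UM q (aeval (((cf q ζ : Fˣ) : F) ^ d) f) (ev₂ q ζ κ (pw p T₂ X₂ d f)) := by
  rw [map_pw, ev₂_T, ev₂_X]
  have := UM_pw hF (UM.xs hκ) ζ d f
  rwa [mul_one] at this

/-- The correction by an element of the centre. -/
lemma exists_corr (hgen : ∀ s : Fˣ, ∃ n : ℕ, s = ζ ^ n) (hord : orderOf ζ = q ^ 2 - 1) {a₀ : ℕ}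
    (hβ : βz q ζ a₀ ≠ 0) {w₁ w₂ : FreeGroup (Fin 2)} {a : F} (h₁ : UM q a (ev₂ q ζ κ w₁))
    (h₂ : UM q a (ev₂ q ζ κ w₂)) :
    ∃ h : (ZMod p)[X], ev₂ q ζ κ (w₁⁻¹ * (w₂ * pw p T₂ (zz T₂ X₂ a₀) 1 h)) = 1 := by
  obtain ⟨β₁, c₁, e₁⟩ := h₁
  obtain ⟨β₂, c₂, e₂⟩ := h₂
  have hc : (β₁ - β₂) + (β₁ - β₂) ^ q = 0 := by
    unfold Ctr at c₁ c₂
    rw [pow_q_sub hF]
    linear_combination c₁ - c₂
  obtain ⟨g, hg⟩ := trace_zero_word (p := p) hF hord hgen hβ (βz_trace hF a₀) hc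
  refine ⟨g, ?_⟩
  rw [map_mul, map_mul, map_inv, e₁, e₂, ev_pw_z hF, hg, XS_mul hF, inv_mul_eq_one, add_zero,
    zero_pow (Cfsg.Agent.Lib.Classical.Herm.SU3Gen.q_ne_zero hF)]
  congr 1
  ring

lemma XS_zero_pow (c : F) (n : ℕ) : (XS q 0 c) ^ n = XS q 0 ((n : F) * c) := by
  induction n with
  | zero =>
    simp [XS_zero hF]
  | succ n ih =>
    rw [pow_succ, ih, XS_mul hF, add_zero]
    congr 1
    push_cast
    simp [Cfsg.Agent.Lib.Classical.Herm.SU3Gen.q_ne_zero hF]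
    ring

end Ev

section Core

variable {F : Type*} [Field F] [Fintype F] {q : ℕ} (hF : Fintype.card F = q ^ 2) {p : ℕ}
  [Fact p.Prime] [Algebra (ZMod p) F] {ζ : Fˣ} {κ : F}

/-- The norm of `ζ`. -/
abbrev xi (q : ℕ) (ζ : Fˣ) : F := (ζ : F) * (ζ : F) ^ q

/-- The generator of the fixed field, as an element of it. -/
noncomputable abbrev xi₀ (p : ℕ) [Fact p.Prime] [Algebra (ZMod p) F] (q : ℕ) (ζ : Fˣ) : (ZMod p)⟮xi q ζ⟯ :=
  ⟨xi q ζ, mem_adjoin_simple_self _ _⟩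

include hF

lemma xi₀_aeval_min : aeval (xi q ζ) (minpoly (ZMod p) (xi₀ p q ζ)) = 0 := by
  rw [← coe_aeval, minpoly.aeval]
  rfl

theorem core (hgen : ∀ s : Fˣ, ∃ n : ℕ, s = ζ ^ n) (hord : orderOf ζ = q ^ 2 - 1) (h3 : 3 ≤ q)
    (hκ : Ctr q 1 κ) {a : ℕ} (hβ : βz q ζ a ≠ 0)
    (hτs : ∀ c : F, ∃ f : (ZMod p)[X], aeval ((cf q ζ : Fˣ) : F) f = c)
    {E_Z E_Y : List (FreeGroup (Fin 2))}
    (mZ : ∀ r ∈ E_Z, ev₂ q ζ κ r = 1) (mY : ∀ r ∈ E_Y, ev₂ q ζ κ r = 1)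
    (lZ : ∀ (G : Type u) [Group G] (φ : FreeGroup (Fin 2) →* G), (∀ r ∈ E_Z, φ r = 1) →
      (∀ i j : ℤ, Commute (xx (φ T₂) (φ (zz T₂ X₂ a)) i) (xx (φ T₂) (φ (zz T₂ X₂ a)) j)) →
      (φ T₂) ^ (q ^ 2 - 1) = 1 →
      pw p (φ T₂) (φ (zz T₂ X₂ a)) 1 (minpoly (ZMod p) (xi₀ p q ζ)) = 1 →
      ∀ k : ℤ, Commute (φ X₂) (xx (φ T₂) (φ (zz T₂ X₂ a)) k))
    (lY : ∀ (Q : Type u) [Group Q] (Φ : FreeGroup (Fin 2) →* Q), (∀ r ∈ E_Y, Φ r = 1) →
      Φ (zz T₂ X₂ a) = 1 →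
      pw p (Φ T₂) (Φ X₂) 1 (minpoly (ZMod p) ((cf q ζ : Fˣ) : F)) = 1 →
      (Φ T₂) ^ (q ^ 2 - 1) = 1 →
      ∀ i j : ℤ, Commute (xx (Φ T₂) (Φ X₂) i) (xx (Φ T₂) (Φ X₂) j)) :
    ∃ E : List (FreeGroup (Fin 2)), E.length ≤ 7 + E_Z.length + E_Y.length ∧
      (∀ r ∈ E, ev₂ q ζ κ r = 1) ∧
      ∀ (G : Type u) [Group G] (φ : FreeGroup (Fin 2) →* G), closure ({φ T₂, φ X₂} : Set G) = ⊤ →
        (∀ r ∈ E, φ r = 1) →
        Finite G ∧ Nat.card G ≤ Nat.card ((ZMod p)⟮xi q ζ⟯) * (Nat.card F * (q ^ 2 - 1)) := by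
  have hq := Cfsg.Agent.Lib.Classical.Herm.SU3Gen.q_ne_zero hF
  have hq2 : 2 ≤ q := by omega
  have hN : 0 < q ^ 2 - 1 := by
    have : 4 ≤ q ^ 2 := by nlinarith
    omega
  have hp0 : ((p : ℕ) : F) = 0 := char_zero_p
  have hξfix : (xi q ζ) ^ q = xi q ζ := xi_fixed hF hord
  obtain ⟨b', hb'⟩ := xi_zech hF hord hgen h3
  obtain ⟨g₆, hg₆⟩ := exists_corr (p := p) (κ := κ) hF hgen hord hβ (w₁ := X₂ ^ p) (w₂ := 1) (a := 0)
    (by
      have := (UM_ev_X (ζ := ζ) hF hκ).pow hF p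
      rw [hp0, zero_mul, ← map_pow] at this
      exact this)
    (by rw [map_one]; exact UM.one hF)
  obtain ⟨g₇, hg₇⟩ := exists_corr (p := p) (κ := κ) hF hgen hord hβ
    (w₁ := pw p T₂ X₂ 1 (minpoly (ZMod p) ((cf q ζ : Fˣ) : F))) (w₂ := 1) (a := 0)
    (by
      have := UM_ev_pw (p := p) (ζ := ζ) hF hκ 1 (minpoly (ZMod p) ((cf q ζ : Fˣ) : F))
      rwa [pow_one, minpoly.aeval] at this)
    (by rw [map_one]; exact UM.one hF)
  set z := zz T₂ X₂ a with hz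
  refine ⟨[T₂ ^ (q ^ 2 - 1), (X₂ ^ p)⁻¹ * (1 * pw p T₂ z 1 g₆),
    (pw p T₂ X₂ 1 (minpoly (ZMod p) ((cf q ζ : Fˣ) : F)))⁻¹ * (1 * pw p T₂ z 1 g₇),
    (xx T₂ z 0)⁻¹ * (xx T₂ z 1 * xx T₂ z (b' : ℤ)), cm (xx T₂ z 0) (xx T₂ z 1), z ^ p,
    pw p T₂ z 1 (minpoly (ZMod p) (xi₀ p q ζ))] ++ E_Z ++ E_Y, ?_, ?_, ?_⟩
  · simp only [List.length_append, List.length_cons, List.length_nil]
    omega
  · intro r hr
    simp only [List.mem_append, List.mem_cons, List.not_mem_nil, or_false] at hr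
    rcases hr with ((rfl | rfl | rfl | rfl | rfl | rfl | rfl) | hr) | hr
    · rw [map_pow, ev₂_T, ← HS_pow]
      have : ζ ^ (q ^ 2 - 1) = 1 := by rw [← hord]; exact pow_orderOf_eq_one ζ
      rw [this, HS_one]
    · exact hg₆
    · exact hg₇
    · rw [map_mul, map_mul, map_inv, ev_xxz hF, ev_xxz hF, ev_xxz hF, XS_mul hF, add_zero,
        zero_pow hq]
      simp only [zpow_zero, zpow_one, zpow_natCast]
      rw [inv_mul_eq_one]
      congr 1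
      have : ((xi q ζ) + (xi q ζ) ^ b') * βz q ζ a = βz q ζ a := by rw [hb', one_mul]
      simp only [xi] at this
      rw [one_mul]
      linear_combination -this
    · rw [map_cm, ev_xxz hF, ev_xxz hF]
      exact cm_of_commute (XS_center_comm hF _ _ _)
    · rw [map_pow, ev_zz hF, XS_zero_pow hF, hp0, zero_mul, XS_zero hF]
    · rw [ev_pw_z hF, xi₀_aeval_min hF, zero_mul, XS_zero hF]
    · exact mZ r hr
    · exact mY r hr
  · intro G _ φ hgen' hr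
    have hrC : ∀ r ∈ [T₂ ^ (q ^ 2 - 1), (X₂ ^ p)⁻¹ * (1 * pw p T₂ z 1 g₆),
        (pw p T₂ X₂ 1 (minpoly (ZMod p) ((cf q ζ : Fˣ) : F)))⁻¹ * (1 * pw p T₂ z 1 g₇),
        (xx T₂ z 0)⁻¹ * (xx T₂ z 1 * xx T₂ z (b' : ℤ)), cm (xx T₂ z 0) (xx T₂ z 1), z ^ p,
        pw p T₂ z 1 (minpoly (ZMod p) (xi₀ p q ζ))], φ r = 1 := fun r h =>
      hr r (List.mem_append_left _ (List.mem_append_left _ h))
    have hrZ : ∀ r ∈ E_Z, φ r = 1 := fun r h =>
      hr r (List.mem_append_left _ (List.mem_append_right _ h))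
    have hrY : ∀ r ∈ E_Y, φ r = 1 := fun r h => hr r (List.mem_append_right _ h)
    have e1 : (φ T₂) ^ (q ^ 2 - 1) = 1 := by
      have := hrC (T₂ ^ (q ^ 2 - 1)) (by simp)
      rwa [map_pow] at this
    have e2 : (φ X₂) ^ p = pw p (φ T₂) (φ z) 1 g₆ := by
      have := hrC ((X₂ ^ p)⁻¹ * (1 * pw p T₂ z 1 g₆)) (by simp)
      simp only [map_mul, map_inv, map_pow, map_one, one_mul, map_pw] at this
      exact (inv_mul_eq_one.1 this)
    have e3 : pw p (φ T₂) (φ X₂) 1 (minpoly (ZMod p) ((cf q ζ : Fˣ) : F)) =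
        pw p (φ T₂) (φ z) 1 g₇ := by
      have := hrC ((pw p T₂ X₂ 1 (minpoly (ZMod p) ((cf q ζ : Fˣ) : F)))⁻¹ * (1 * pw p T₂ z 1 g₇))
        (by simp)
      simp only [map_mul, map_inv, map_one, one_mul, map_pw] at this
      exact (inv_mul_eq_one.1 this)
    have e4 : xx (φ T₂) (φ z) 0 = xx (φ T₂) (φ z) 1 * xx (φ T₂) (φ z) (b' : ℤ) := by
      have := hrC ((xx T₂ z 0)⁻¹ * (xx T₂ z 1 * xx T₂ z (b' : ℤ))) (by simp)
      simp only [map_mul, map_inv, map_xx] at this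
      exact (inv_mul_eq_one.1 this)
    have e5 : Commute (xx (φ T₂) (φ z) 0) (xx (φ T₂) (φ z) 1) := by
      have := hrC (cm (xx T₂ z 0) (xx T₂ z 1)) (by simp)
      simp only [map_cm, map_xx] at this
      exact commute_of_cm this
    have e6 : (φ z) ^ p = 1 := by
      have := hrC (z ^ p) (by simp)
      rwa [map_pow] at this
    have e7 : pw p (φ T₂) (φ z) 1 (minpoly (ZMod p) (xi₀ p q ζ)) = 1 := by
      have := hrC (pw p T₂ z 1 (minpoly (ZMod p) (xi₀ p q ζ))) (by simp)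
      rwa [map_pw] at this
    have hZc := comm_zech_one e4 e5
    have hxZ := lZ G φ hrZ hZc e1 e7
    have hτ0 : ((cf q ζ : Fˣ) : F) ≠ 0 := Units.ne_zero _
    have hξ₀0 : xi₀ p q ζ ≠ 0 := by
      intro h
      have := congrArg Subtype.val h
      exact mul_ne_zero ζ.ne_zero (pow_ne_zero _ ζ.ne_zero) this
    refine bound_P (t := φ T₂) (x := φ X₂) (z := φ z) hgen' hτ0 hτs hξ₀0 (adjoin_surj hF hξfix) hN e1 hZc
      e6 e7 hxZ ⟨g₆, e2⟩ ⟨g₇, e3⟩ ?_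
    intro Q _ ψ hψz hψm
    refine lY Q (ψ.comp φ) (fun r hr' => ?_) hψz ?_ ?_
    · rw [MonoidHom.comp_apply, hrY r hr', map_one]
    · have := hψm
      rw [map_pw] at this
      exact this
    · show (ψ (φ T₂)) ^ (q ^ 2 - 1) = 1
      rw [← map_pow, e1, map_one]

/-- The generic lists. -/
theorem borel_generic (hgen : ∀ s : Fˣ, ∃ n : ℕ, s = ζ ^ n) (hord : orderOf ζ = q ^ 2 - 1)
    (h3 : 3 ≤ q) (h5 : q ≠ 5) (h8 : q ≠ 8) (hκ : Ctr q 1 κ) :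
    ∃ (a : ℕ) (E : List (FreeGroup (Fin 2))), βz q ζ a ≠ 0 ∧ E.length ≤ 12 ∧
      (∀ r ∈ E, ev₂ q ζ κ r = 1) ∧
      ∀ (G : Type u) [Group G] (φ : FreeGroup (Fin 2) →* G), closure ({φ T₂, φ X₂} : Set G) = ⊤ →
        (∀ r ∈ E, φ r = 1) →
        Finite G ∧ Nat.card G ≤ Nat.card ((ZMod p)⟮xi q ζ⟯) * (Nat.card F * (q ^ 2 - 1)) := by
  have h2 : q ≠ 2 := by omega
  have hq := Cfsg.Agent.Lib.Classical.Herm.SU3Gen.q_ne_zero hF
  have hN : 0 < q ^ 2 - 1 := by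
    have : 4 ≤ q ^ 2 := by nlinarith
    omega
  obtain ⟨a, b, d, l, n, g, hd, hlat, hsum, hg, hne⟩ := exists_zech_su (p := p) hF hord hgen h2 h5 h8
  have hβ : βz q ζ a ≠ 0 := sub_ne_zero.2 hne
  have hτs := tau_gen (p := p) hF hord h2 h5
  obtain ⟨f, hf⟩ := mu_gen (p := p) hF hord h2 h5 h8 (((cf q ζ : Fˣ) : F))
  rw [Units.val_pow_eq_pow_val] at hf
  have uτ : UM q ((cf q ζ : Fˣ) : F) (ev₂ q ζ κ (xx T₂ X₂ 1)) := by
    have := UM_ev_xx (ζ := ζ) hF hκ 1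
    rwa [pow_one, Nat.cast_one] at this
  obtain ⟨g₁, hg₁⟩ := exists_corr (p := p) (κ := κ) hF hgen hord hβ uτ
    (w₂ := pw p T₂ X₂ (q - 1) f) (by
      have := UM_ev_pw (p := p) (ζ := ζ) hF hκ (q - 1) f
      rwa [hf] at this)
  obtain ⟨g₂, hg₂⟩ := exists_corr (p := p) (κ := κ) hF hgen hord hβ (UM_ev_X hF hκ)
    (w₂ := xx T₂ X₂ (a : ℤ) * xx T₂ X₂ (b : ℤ)) (by
      have := (UM_ev_xx (ζ := ζ) hF hκ a).mul hF (UM_ev_xx (ζ := ζ) hF hκ b)
      rw [hsum, ← map_mul] at this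
      exact this)
  obtain ⟨g₃, hg₃⟩ := exists_corr (p := p) (κ := κ) hF hgen hord hβ uτ
    (w₂ := pw p T₂ X₂ d g) (by
      have := UM_ev_pw (p := p) (ζ := ζ) hF hκ d g
      rwa [hg] at this)
  refine Exists.elim (core (p := p) (κ := κ) hF hgen hord h3 hκ hβ hτs
    (E_Z := [cm X₂ (zz T₂ X₂ a),
      (xx T₂ X₂ 1)⁻¹ * (pw p T₂ X₂ (q - 1) f * pw p T₂ (zz T₂ X₂ a) 1 g₁),
      cm (T₂ ^ (q - 1)) (zz T₂ X₂ a)])
    (E_Y := [X₂⁻¹ * ((xx T₂ X₂ (a : ℤ) * xx T₂ X₂ (b : ℤ)) * pw p T₂ (zz T₂ X₂ a) 1 g₂),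
      (xx T₂ X₂ 1)⁻¹ * (pw p T₂ X₂ d g * pw p T₂ (zz T₂ X₂ a) 1 g₃)]) ?_ ?_ ?_ ?_) ?_
  · intro r hr
    simp only [List.mem_cons, List.not_mem_nil, or_false] at hr
    rcases hr with rfl | rfl | rfl
    · rw [map_cm, ev₂_X, ev_zz hF]
      exact cm_of_commute (XS_center_comm hF _ _ _)
    · exact hg₁
    · rw [map_cm, map_pow, ev₂_T, ev_zz hF, ← HS_pow]
      unfold cm
      rw [HS_conj hF]
      have hs : (((ζ ^ (q - 1) : Fˣ)) : F) * ((ζ ^ (q - 1) : Fˣ) : F) ^ q = 1 := by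
        have h1 : ζ ^ (q ^ 2 - 1) = 1 := by rw [← hord]; exact pow_orderOf_eq_one ζ
        have e : q ^ 2 - 1 = (q - 1) * (q + 1) := by
          zify [show 1 ≤ q by omega, show 1 ≤ q ^ 2 by nlinarith]
          ring
        rw [e, pow_mul, pow_succ'] at h1
        have := congrArg Units.val h1
        simpa using this
      rw [hs, one_mul, mul_zero, mul_inv_cancel]
  · intro r hr
    simp only [List.mem_cons, List.not_mem_nil, or_false] at hr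
    rcases hr with rfl | rfl
    · exact hg₂
    · exact hg₃
  · intro G _ φ hr hZc e1 e7 k
    have hx0 : Commute (φ X₂) (φ (zz T₂ X₂ a)) := by
      have := hr (cm X₂ (zz T₂ X₂ a)) (by simp)
      rw [map_cm] at this
      exact commute_of_cm this
    have ht : Commute ((φ T₂) ^ (q - 1)) (φ (zz T₂ X₂ a)) := by
      have := hr (cm (T₂ ^ (q - 1)) (zz T₂ X₂ a)) (by simp)
      rw [map_cm, map_pow] at this
      exact commute_of_cm this
    have hy : xx (φ T₂) (φ X₂) 1 = pw p (φ T₂) (φ X₂) (q - 1) f *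
        pw p (φ T₂) (φ (zz T₂ X₂ a)) 1 g₁ := by
      have := hr ((xx T₂ X₂ 1)⁻¹ * (pw p T₂ X₂ (q - 1) f * pw p T₂ (zz T₂ X₂ a) 1 g₁)) (by simp)
      simp only [map_mul, map_inv, map_pw, map_xx] at this
      exact inv_mul_eq_one.1 this
    exact comm_x_generic hZc hN e1 hx0 ht hy k
  · intro Q _ Φ hr hz hm e1 i j
    have hcm : Commute (Φ X₂) (xx (Φ T₂) (Φ X₂) (a : ℤ)) := by
      have := hz
      rw [map_zz] at this
      exact commute_of_cm this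
    have hzech : xx (Φ T₂) (Φ X₂) 0 = xx (Φ T₂) (Φ X₂) (a : ℤ) * xx (Φ T₂) (Φ X₂) (b : ℤ) := by
      have := hr (X₂⁻¹ * ((xx T₂ X₂ (a : ℤ) * xx T₂ X₂ (b : ℤ)) * pw p T₂ (zz T₂ X₂ a) 1 g₂)) (by simp)
      simp only [map_mul, map_inv, map_pw, map_xx, hz, pw_one_u, mul_one] at this
      rw [xx_zero]
      exact inv_mul_eq_one.1 this
    have hy : xx (Φ T₂) (Φ X₂) 1 = pw p (Φ T₂) (Φ X₂) d g := by
      have := hr ((xx T₂ X₂ 1)⁻¹ * (pw p T₂ X₂ d g * pw p T₂ (zz T₂ X₂ a) 1 g₃)) (by simp)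
      simp only [map_mul, map_inv, map_pw, map_xx, hz, pw_one_u, mul_one] at this
      exact inv_mul_eq_one.1 this
    refine Cfsg.Agent.Lib.Presentations.Commute.comm_generic (a := (a : ℤ)) (b := (b : ℤ)) hd l n hlat
      hzech ?_ ?_ i j
    · rw [xx_zero]
      exact hcm
    · rw [hy]
      exact pw_mem_range _ _ _ _
  · rintro E ⟨hlen, hmod, hbd⟩
    refine ⟨a, E, hβ, ?_, hmod, fun G _ φ h1 h4 => hbd G φ h1 h4⟩
    simpa using hlen

omit hF in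
/-- Degree bound. -/
lemma natDegree_minpoly_le {K : Type*} [Field K] [Finite K] [Algebra (ZMod p) K] {n r : ℕ}
    (hc : Nat.card K ≤ 2 ^ n) (x : K) : (minpoly (ZMod p) x).natDegree ≤ n := by
  have h1 := minpoly.natDegree_le (A := ZMod p) x
  refine h1.trans ?_
  have h2 : Nat.card K = p ^ Module.finrank (ZMod p) K := by
    have := Module.natCard_eq_pow_finrank (K := ZMod p) (V := K)
    rwa [Nat.card_zmod] at this
  have hp : 2 ≤ p := (Fact.out : p.Prime).two_le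
  have h3 : 2 ^ Module.finrank (ZMod p) K ≤ 2 ^ n := by
    calc 2 ^ Module.finrank (ZMod p) K ≤ p ^ Module.finrank (ZMod p) K :=
          Nat.pow_le_pow_left hp _
      _ = Nat.card K := h2.symm
      _ ≤ 2 ^ n := hc
  exact (Nat.pow_le_pow_iff_right (by norm_num)).1 h3

/-- The fixed subfield is small. -/
lemma card_adjoin_le (hξ : xi q ζ ^ q = xi q ζ) : Nat.card ((ZMod p)⟮xi q ζ⟯) ≤ q := by
  classical
  have hq1 : 1 < q := by have := Cfsg.Agent.Lib.Classical.Herm.Basic.two_le_q hF; omega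
  have hP0 : (X ^ q - X : F[X]) ≠ 0 := FiniteField.X_pow_card_sub_X_ne_zero F hq1
  have hdeg : (X ^ q - X : F[X]).natDegree = q := FiniteField.X_pow_card_sub_X_natDegree_eq F hq1
  letI : Fintype ((ZMod p)⟮xi q ζ⟯) := Fintype.ofFinite _
  let Z : Finset F := Finset.univ.image (Subtype.val : (ZMod p)⟮xi q ζ⟯ → F)
  have hZ : Z.val ⊆ (X ^ q - X : F[X]).roots := by
    intro z hz
    rw [mem_roots hP0]
    have hz' : z ∈ Z := hz
    obtain ⟨w, -, rfl⟩ := Finset.mem_image.1 hz'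
    have := (adjoin_fixed hF hξ w).1
    simp [IsRoot, this]
  have hcard := card_le_degree_of_subset_roots hZ
  rw [hdeg] at hcard
  rw [Nat.card_eq_fintype_card]
  have hZc : Z.card = Fintype.card ((ZMod p)⟮xi q ζ⟯) := by
    rw [Finset.card_image_of_injective _ Subtype.val_injective, Finset.card_univ]
  omega

end Core

section Eight

variable {F : Type*} [Field F] [Fintype F] (hF : Fintype.card F = 8 ^ 2) {p : ℕ}
  [Fact p.Prime] [Algebra (ZMod p) F] {ζ : Fˣ} {κ : F}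

include hF

/-- The lists for `q = 8`. -/
theorem borel_eight (hgen : ∀ s : Fˣ, ∃ n : ℕ, s = ζ ^ n) (hord : orderOf ζ = 8 ^ 2 - 1)
    (hκ : Ctr 8 1 κ) :
    ∃ (a : ℕ) (E : List (FreeGroup (Fin 2))), βz 8 ζ a ≠ 0 ∧ E.length ≤ 16 ∧
      (∀ r ∈ E, ev₂ 8 ζ κ r = 1) ∧
      ∀ (G : Type u) [Group G] (φ : FreeGroup (Fin 2) →* G), closure ({φ T₂, φ X₂} : Set G) = ⊤ →
        (∀ r ∈ E, φ r = 1) →
        Finite G ∧ Nat.card G ≤ Nat.card ((ZMod p)⟮xi 8 ζ⟯) * (Nat.card F * (8 ^ 2 - 1)) := by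
  have hβ : βz 8 ζ 1 ≠ 0 := by
    intro h
    apply mu_ne hF hord (by norm_num) (by norm_num)
    apply Units.ext
    have h1 : ((cf 8 ζ : Fˣ) : F) ^ 8 = (cf 8 ζ : Fˣ) := by
      have : βz 8 ζ 1 = (((cf 8 ζ : Fˣ) : F) ^ 1) ^ 8 - ((cf 8 ζ : Fˣ) : F) ^ 1 := rfl
      rw [this, pow_one] at h
      exact sub_eq_zero.1 h
    have h0 : ((cf 8 ζ : Fˣ) : F) ≠ 0 := Units.ne_zero _
    have h2 : ((cf 8 ζ : Fˣ) : F) ^ 7 * (cf 8 ζ : Fˣ) = 1 * (cf 8 ζ : Fˣ) := by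
      rw [one_mul, ← pow_succ, h1]
    have h3 := mul_right_cancel₀ h0 h2
    simpa using h3
  have hτs := tau_gen (p := p) hF hord (by norm_num) (by norm_num)
  have hξfix : (xi 8 ζ) ^ 8 = xi 8 ζ := xi_fixed hF hord
  have hc : ∀ m : ℕ, ∃ h : (ZMod p)[X], ev₂ 8 ζ κ ((cm X₂ (xx T₂ X₂ (m : ℤ)))⁻¹ *
      (1 * pw p T₂ (zz T₂ X₂ 1) 1 h)) = 1 := by
    intro m
    refine exists_corr (p := p) (κ := κ) hF hgen hord hβ (a := 0) ?_ (by rw [map_one]; exact UM.one hF)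
    have u1 := UM_ev_X (ζ := ζ) hF hκ
    have u2 := UM_ev_xx (ζ := ζ) hF hκ m
    have := ((u1.mul hF u2).mul hF (u1.inv hF)).mul hF (u2.inv hF)
    rw [map_cm]
    convert this using 1
    · ring
    · rfl
  choose h hh using hc
  refine Exists.elim (core (p := p) (κ := κ) hF hgen hord (by norm_num) hκ hβ hτs
    (E_Z := (List.range 3).map fun i : ℕ => cm X₂ (xx T₂ (zz T₂ X₂ 1) (i : ℤ)))
    (E_Y := (List.range 6).map fun m : ℕ => (cm X₂ (xx T₂ X₂ (m : ℤ)))⁻¹ *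
      (1 * pw p T₂ (zz T₂ X₂ 1) 1 (h m))) ?_ ?_ ?_ ?_) ?_
  · intro r hr
    obtain ⟨i, -, rfl⟩ := List.mem_map.1 hr
    rw [map_cm, ev₂_X, ev_xxz hF]
    exact cm_of_commute (XS_center_comm hF _ _ _)
  · intro r hr
    obtain ⟨i, -, rfl⟩ := List.mem_map.1 hr
    exact hh i
  · intro G _ φ hr hZc e1 e7 k
    have hint : IsIntegral (ZMod p) (xi₀ p 8 ζ) := IsIntegral.of_finite _ _
    have hcard : Nat.card ((ZMod p)⟮xi 8 ζ⟯) ≤ 2 ^ 3 := card_adjoin_le hF hξfix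
    refine comm_x_seeds (p := p) (minpoly.monic hint) (minpoly.natDegree_pos hint) (by norm_num) e1 e7
      (fun m hm => ?_) k
    have hm3 : m < 3 := lt_of_lt_of_le hm (natDegree_minpoly_le (r := 0) hcard _)
    have := hr (cm X₂ (xx T₂ (zz T₂ X₂ 1) (m : ℤ))) (List.mem_map.2 ⟨m, List.mem_range.2 hm3, rfl⟩)
    rw [map_cm, map_xx] at this
    exact commute_of_cm this
  · intro Q _ Φ hr hz hm e1 i j
    have hint : IsIntegral (ZMod p) ((cf 8 ζ : Fˣ) : F) := IsIntegral.of_finite _ _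
    have hcard : Nat.card F ≤ 2 ^ 6 := by
      rw [Nat.card_eq_fintype_card, hF]
      norm_num
    refine comm_seeds (p := p) (minpoly.monic hint) (minpoly.natDegree_pos hint) (by norm_num) e1 hm
      (fun m hm' => ?_) i j
    have hm6 : m < 6 := lt_of_lt_of_le hm' (natDegree_minpoly_le (r := 0) hcard _)
    have := hr ((cm X₂ (xx T₂ X₂ (m : ℤ)))⁻¹ * (1 * pw p T₂ (zz T₂ X₂ 1) 1 (h m)))
      (List.mem_map.2 ⟨m, List.mem_range.2 hm6, rfl⟩)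
    simp only [map_mul, map_inv, map_pw, map_one, one_mul, hz, pw_one_u, mul_one, inv_eq_one,
      map_cm, map_xx] at this
    exact commute_of_cm this
  · rintro E ⟨hlen, hmod, hbd⟩
    refine ⟨1, E, hβ, ?_, hmod, fun G _ φ h1 h4 => hbd G φ h1 h4⟩
    simpa using hlen

end Eight

/-- The combined statement. -/
theorem borel_list {F : Type*} [Field F] [Fintype F] {q : ℕ} (hF : Fintype.card F = q ^ 2) {p : ℕ}
    [Fact p.Prime] [Algebra (ZMod p) F] {ζ : Fˣ} {κ : F}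
    (hgen : ∀ s : Fˣ, ∃ n : ℕ, s = ζ ^ n) (hord : orderOf ζ = q ^ 2 - 1)
    (h3 : 3 ≤ q) (h5 : q ≠ 5) (hκ : Ctr q 1 κ) :
    ∃ (a : ℕ) (E : List (FreeGroup (Fin 2))), βz q ζ a ≠ 0 ∧ E.length ≤ 16 ∧
      (∀ r ∈ E, ev₂ q ζ κ r = 1) ∧
      ∀ (G : Type u) [Group G] (φ : FreeGroup (Fin 2) →* G), closure ({φ T₂, φ X₂} : Set G) = ⊤ →
        (∀ r ∈ E, φ r = 1) →
        Finite G ∧ Nat.card G ≤ Nat.card ((ZMod p)⟮xi q ζ⟯) * (Nat.card F * (q ^ 2 - 1)) := by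
  by_cases h8 : q = 8
  · subst h8
    exact borel_eight hF hgen hord hκ
  · obtain ⟨a, E, h1, h2, h4, h6⟩ := borel_generic (p := p) (κ := κ) hF hgen hord h3 h5 h8 hκ
    exact ⟨a, E, h1, by omega, h4, h6⟩

end Cfsg.Agent.Lib.PresSU.Borel
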