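import Cfsg.Agent.Lib.PresSU.Model

/-!
# The big cell of a group mapping to `SU₃(q)`

Given a homomorphism `π : Γ → SL₃` that is injective on a subgroup `P` lying over the Borel subgroup,
and an involution `w` over the Weyl element, we study the elements of `P` such that `w γ w⁻¹` is in
the double coset `P w P`.
-/

set_option autoImplicit false
set_option linter.unusedSectionVars false
set_option linter.unusedSimpArgs false
set_option linter.unusedVariables false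
set_option linter.flexible false

namespace Cfsg.Agent.Lib.PresSU.Cell

open Cfsg.Agent.Lib.PresSU.Model Cfsg.Agent.Lib.Classical.Herm.Basic
open Cfsg.Agent.Lib.Classical.Herm.SU3Gen (G0)
open Subgroup

variable {F : Type*} [Field F] [Fintype F] {q : ℕ}

/-- The data. -/
structure Data (Γ : Type*) [Group Γ] (hF : Fintype.card F = q ^ 2) where
  π : Γ →* S3 F
  t : Γ
  w : Γ
  P : Subgroup Γ
  ζ : Fˣ
  ht : π t = HS q ζ
  hw : π w = WS
  htP : t ∈ P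
  hP1 : ∀ γ ∈ P, π γ ∈ BM F hF
  hP2 : ∀ g ∈ BM F hF, ∃ γ ∈ P, π γ = g
  hinj : ∀ γ ∈ P, π γ = 1 → γ = 1
  hww : w * w = 1
  hwt : w * t * w⁻¹ = (t ^ q)⁻¹
  hζ : ∀ s : Fˣ, ∃ n : ℕ, s = ζ ^ n

variable {Γ : Type*} [Group Γ] {hF : Fintype.card F = q ^ 2} (D : Data Γ hF)

lemma ctrL (hF : Fintype.card F = q ^ 2) {a : F} {β : Fˣ} (hc : Ctr q a β) : Ctr q (-a / (β : F) ^ q) (1 / β) := by
  have hb : (β : F) ≠ 0 := β.ne_zero
  have hbq : (β : F) ^ q ≠ 0 := pow_ne_zero _ hb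
  have h1 : ((β : F) ^ q) ^ q = β := pow_q_pow_q hF _
  unfold Ctr at *
  rw [pow_succ] at hc ⊢
  simp only [div_pow, pow_q_neg hF, h1, one_pow]
  field_simp
  linear_combination hc

lemma ctrV (hF : Fintype.card F = q ^ 2) {a : F} {β : Fˣ} (hc : Ctr q a β) : Ctr q (-a / (β : F)) (1 / β) := by
  have hb : (β : F) ≠ 0 := β.ne_zero
  have hbq : (β : F) ^ q ≠ 0 := pow_ne_zero _ hb
  unfold Ctr at *
  rw [pow_succ] at hc ⊢
  simp only [div_pow, pow_q_neg hF, one_pow]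
  field_simp
  linear_combination hc

namespace Data

lemma inj {γ γ' : Γ} (h : γ ∈ D.P) (h' : γ' ∈ D.P) (e : D.π γ = D.π γ') : γ = γ' := by
  have := D.hinj (γ * γ'⁻¹) (mul_mem h (inv_mem h')) (by rw [map_mul, map_inv, e, mul_inv_cancel])
  exact mul_inv_eq_one.1 this

lemma w_inv : D.w⁻¹ = D.w := inv_eq_of_mul_eq_one_left D.hww

lemma lift_T (s : Fˣ) : ∃ k : ℕ, D.t ^ k ∈ D.P ∧ D.π (D.t ^ k) = HS q s := by
  obtain ⟨n, rfl⟩ := D.hζ s
  exact ⟨n, pow_mem D.htP n, by rw [map_pow, D.ht, HS_pow]⟩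

lemma star {γ : Γ} (h : γ ∈ D.P) {s : Fˣ} (e : D.π γ = HS q s) :
    D.w * γ * D.w⁻¹ ∈ D.P ∧ D.π (D.w * γ * D.w⁻¹) = WS * HS q s * (WS : S3 F)⁻¹ := by
  obtain ⟨k, hk, ek⟩ := D.lift_T s
  have e1 : γ = D.t ^ k := D.inj h hk (by rw [e, ek])
  subst e1
  constructor
  · rw [← conj_pow, D.hwt]
    exact pow_mem (inv_mem (pow_mem D.htP _)) _
  · rw [map_mul, map_mul, map_inv, D.hw, e]

/-- The cell condition. -/
def InCell (γ : Γ) : Prop := ∃ b₁ ∈ D.P, ∃ b₂ ∈ D.P, D.w * γ * D.w⁻¹ = b₁ * D.w * b₂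

/-- The cell condition on root elements. -/
def Gd (a β : F) : Prop := ∀ γ ∈ D.P, D.π γ = XS q a β → D.InCell γ

lemma lift_X {a β : F} (h : Ctr q a β) : ∃ γ ∈ D.P, D.π γ = XS q a β :=
  D.hP2 _ (XS_mem_BM hF h)

lemma Gd.conj {D : Data Γ hF} {a β : F} (h : D.Gd a β) (s : Fˣ) :
    D.Gd ((cf q s : F) * a) ((s : F) * (s : F) ^ q * β) := by
  intro γ hγ e
  obtain ⟨k, hk, ek⟩ := D.lift_T s
  have e0 : D.π ((D.t ^ k)⁻¹ * γ * D.t ^ k) = XS q a β := by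
    rw [map_mul, map_mul, map_inv, ek, e, ← HS_conj hF]
    group
  obtain ⟨b₁, h₁, b₂, h₂, e'⟩ := h _ (mul_mem (mul_mem (inv_mem hk) hγ) hk) e0
  obtain ⟨hd, -⟩ := D.star hk ek
  refine ⟨(D.w * D.t ^ k * D.w⁻¹) * b₁, mul_mem hd h₁, b₂ * (D.w * D.t ^ k * D.w⁻¹)⁻¹,
    mul_mem h₂ (inv_mem hd), ?_⟩
  have e2 : γ = D.t ^ k * ((D.t ^ k)⁻¹ * γ * D.t ^ k) * (D.t ^ k)⁻¹ := by group
  calc D.w * γ * D.w⁻¹ = (D.w * D.t ^ k * D.w⁻¹) *
        (D.w * ((D.t ^ k)⁻¹ * γ * D.t ^ k) * D.w⁻¹) * (D.w * D.t ^ k * D.w⁻¹)⁻¹ := by group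
    _ = _ := by rw [e']; group

/-- The exact form of the cell relation. -/
lemma exact_form {a : F} {β : Fˣ} (hc : Ctr q a β) {γ γ₁ η γv : Γ} (hγ : γ ∈ D.P)
    (eγ : D.π γ = XS q a β) (hcell : D.InCell γ) (h₁ : γ₁ ∈ D.P)
    (e₁ : D.π γ₁ = XS q (-a / (β : F) ^ q) (1 / β)) (hη : η ∈ D.P)
    (eη : D.π η = HS q (β ^ q)⁻¹) (hv : γv ∈ D.P) (ev : D.π γv = XS q (-a / β) (1 / β)) :
    D.w * γ * D.w⁻¹ = γ₁ * η * D.w * γv := by
  obtain ⟨b₁, hb₁, b₂, hb₂, e⟩ := hcell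
  have hbr := bruhat hF a β hc
  have e' := congrArg D.π e
  simp only [map_mul, map_inv, D.hw, eγ] at e'
  rw [hbr, ← e₁, ← eη, ← ev] at e'
  set d := (γ₁ * η)⁻¹ * b₁ with hd
  set f := γv * b₂⁻¹ with hf
  have hdP : d ∈ D.P := mul_mem (inv_mem (mul_mem h₁ hη)) hb₁
  have hfP : f ∈ D.P := mul_mem hv (inv_mem hb₂)
  have key : D.π d = WS * D.π f * (WS : S3 F)⁻¹ := by
    rw [hd, hf]
    simp only [map_mul, map_inv]
    have e3 : D.π b₁ = D.π γ₁ * D.π η * WS * D.π γv * (D.π b₂)⁻¹ * (WS : S3 F)⁻¹ := by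
      rw [e']; group
    rw [e3]; group
  obtain ⟨s, hs⟩ := eq_HS_of_conj hF (D.hP1 d hdP) (D.hP1 f hfP) key
  obtain ⟨hd1, hd2⟩ := D.star hdP hs
  have hfe : D.w * d * D.w⁻¹ = f := by
    apply D.inj hd1 hfP
    rw [hd2, ← hs, key, WS_inv]
    have : (WS : S3 F) * WS = 1 := WS_mul_WS
    calc (WS : S3 F) * (WS * D.π f * WS) * WS = (WS * WS) * D.π f * (WS * WS) := by group
      _ = _ := by rw [this]; group
  have hb1 : b₁ = γ₁ * η * d := by rw [hd]; group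
  have hb2 : γv = f * b₂ := by rw [hf]; group
  rw [e, hb1, hb2, ← hfe]
  have hwi := D.w_inv
  rw [hwi]
  have hww := D.hww
  calc γ₁ * η * d * D.w * b₂ = γ₁ * η * (D.w * D.w) * d * D.w * b₂ := by rw [hww]; group
    _ = _ := by group


/-- The swap. -/
lemma Gd.swap {D : Data Γ hF} {a : F} {β : Fˣ} (hc : Ctr q a β) (h : D.Gd a β) :
    D.Gd (a / (β : F) ^ q) (1 / (β : F) ^ q) := by
  intro γ' hγ' e'
  have hb : (β : F) ≠ 0 := β.ne_zero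
  have hbq : (β : F) ^ q ≠ 0 := pow_ne_zero _ hb
  have h1 : ((β : F) ^ q) ^ q = β := pow_q_pow_q hF _
  have hc0 := hc
  unfold Ctr at hc0
  rw [pow_succ] at hc0
  -- the pieces
  have cL : Ctr q (-a / (β : F) ^ q) (1 / β) := ctrL hF hc
  have cV : Ctr q (-a / (β : F)) (1 / β) := ctrV hF hc
  obtain ⟨γ, hγ, eγ⟩ := D.lift_X hc
  obtain ⟨γ₁, h₁, e₁⟩ := D.lift_X cL
  obtain ⟨γv, hv, ev⟩ := D.lift_X cV
  obtain ⟨k, hk, ek⟩ := D.lift_T (β ^ q)⁻¹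
  have ex := D.exact_form hc hγ eγ (h γ hγ eγ) h₁ e₁ hk ek hv ev
  have e2 : γ' = γ₁⁻¹ := by
    apply D.inj hγ' (inv_mem h₁)
    rw [e', map_inv, e₁, XS_inv hF, div_pow, pow_q_neg hF, h1, neg_div, neg_neg]
    congr 1
    field_simp
    linear_combination hc0
  subst e2
  obtain ⟨hs, -⟩ := D.star hk ek
  refine ⟨(D.w * D.t ^ k * D.w⁻¹) * γv, mul_mem hs hv, γ⁻¹, inv_mem hγ, ?_⟩
  have e3 : γ₁⁻¹ = D.t ^ k * D.w * γv * (D.w * γ * D.w⁻¹)⁻¹ := by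
    rw [ex]; group
  rw [e3]
  have hww := D.hww
  have hwi := D.w_inv
  rw [hwi]
  calc D.w * (D.t ^ k * D.w * γv * (D.w * γ * D.w)⁻¹) * D.w
      = D.w * D.t ^ k * D.w * γv * D.w⁻¹ * γ⁻¹ * (D.w⁻¹ * D.w) := by group
    _ = _ := by rw [hwi, hww]; group

/-- The composition. -/
lemma Gd.comp {D : Data Γ hF} {a a' : F} {β β' : Fˣ} (hc : Ctr q a β) (hc' : Ctr q a' β')
    (h : D.Gd a β) (h' : D.Gd a' β') (hsum : a / β + a' / (β' : F) ^ q = 0)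
    {β'' : F} (hβ'' : β'' = β + β' + a * a' ^ q) (hne : β'' ≠ 0)
    (hZ : ∀ c : F, c ≠ 0 → c + c ^ q = 0 → D.Gd 0 c) :
    D.Gd (a + a') β'' := by
  intro γ hγ e
  have hb : (β : F) ≠ 0 := β.ne_zero
  have hbq : (β : F) ^ q ≠ 0 := pow_ne_zero _ hb
  have h1 : ((β : F) ^ q) ^ q = β := pow_q_pow_q hF _
  have hb' : (β' : F) ≠ 0 := β'.ne_zero
  have hbq' : (β' : F) ^ q ≠ 0 := pow_ne_zero _ hb'
  have h1' : ((β' : F) ^ q) ^ q = β' := pow_q_pow_q hF _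
  have hc0 := hc
  have hc0' := hc'
  unfold Ctr at hc0 hc0'
  rw [pow_succ] at hc0 hc0'
  have cL' : Ctr q (-a' / (β' : F) ^ q) (1 / β') := ctrL hF hc'
  have cV : Ctr q (-a / (β : F)) (1 / β) := ctrV hF hc
  have cL : Ctr q (-a / (β : F) ^ q) (1 / β) := ctrL hF hc
  have cV' : Ctr q (-a' / (β' : F)) (1 / β') := ctrV hF hc'
  obtain ⟨γa, hγa, eγa⟩ := D.lift_X hc
  obtain ⟨γa', hγa', eγa'⟩ := D.lift_X hc'
  have e0 : γ = γa * γa' := by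
    apply D.inj hγ (mul_mem hγa hγa')
    rw [e, map_mul, eγa, eγa', XS_mul hF, hβ'']
  obtain ⟨γ₁, h₁, e₁⟩ := D.lift_X cL
  obtain ⟨γv, hv, ev⟩ := D.lift_X cV
  obtain ⟨γ₁', h₁', e₁'⟩ := D.lift_X cL'
  obtain ⟨γv', hv', ev'⟩ := D.lift_X cV'
  obtain ⟨k, hk, ek⟩ := D.lift_T (β ^ q)⁻¹
  obtain ⟨k', hk', ek'⟩ := D.lift_T (β' ^ q)⁻¹
  have ex := D.exact_form hc hγa eγa (h _ hγa eγa) h₁ e₁ hk ek hv ev
  have ex' := D.exact_form hc' hγa' eγa' (h' _ hγa' eγa') h₁' e₁' hk' ek' hv' ev'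
  -- the central element
  set c : F := 1 / (β : F) + 1 / (β' : F) + -a / β * (-a' / (β' : F) ^ q) ^ q with hcdef
  have ha0 : -a / (β : F) + -a' / (β' : F) ^ q = 0 := by
    rw [neg_div, neg_div, ← neg_add, hsum, neg_zero]
  have eε : D.π (γv * γ₁') = XS q 0 c := by
    rw [map_mul, ev, e₁', XS_mul hF, ha0]
  have cc : Ctr q (0 : F) c := by
    have := cV.mul hF cL'
    rwa [ha0] at this
  have hcne : c ≠ 0 := by
    have : c = β'' / (β * β') := by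
      rw [hcdef, hβ'', div_pow, pow_q_neg hF, h1']
      field_simp
      ring
    rw [this]
    exact div_ne_zero hne (mul_ne_zero hb hb')
  have hq := Cfsg.Agent.Lib.Classical.Herm.SU3Gen.q_ne_zero hF
  have ctr0 : c + c ^ q = 0 := by
    have := cc
    unfold Ctr at this
    simpa using this
  obtain ⟨b₁, hb₁, b₂, hb₂, ec⟩ := hZ c hcne ctr0 _ (mul_mem hv h₁') eε
  obtain ⟨hs', -⟩ := D.star hk' ek'
  refine ⟨γ₁ * D.t ^ k * b₁, mul_mem (mul_mem h₁ hk) hb₁,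
    b₂ * (D.w * D.t ^ k' * D.w⁻¹) * γv', mul_mem (mul_mem hb₂ hs') hv', ?_⟩
  have hww := D.hww
  have hwi := D.w_inv
  rw [e0]
  calc D.w * (γa * γa') * D.w⁻¹ = (D.w * γa * D.w⁻¹) * (D.w * γa' * D.w⁻¹) := by group
    _ = γ₁ * D.t ^ k * (D.w * (γv * γ₁') * D.w⁻¹) * (D.w * D.t ^ k' * D.w⁻¹) * (D.w * D.w) * γv' := by
        rw [ex, ex']
        group
    _ = _ := by rw [ec, hww]; group


/-- All central elements from one. -/
lemma Gd.all_center {D : Data Γ hF} {c₀ : F} (h : D.Gd 0 c₀) (h0 : c₀ ≠ 0) (hc₀ : c₀ + c₀ ^ q = 0)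
    (c : F) (hc : c ≠ 0) (hcq : c + c ^ q = 0) : D.Gd 0 c := by
  have hq0 : c₀ ^ q ≠ 0 := pow_ne_zero _ h0
  have e1 : c₀ ^ q = -c₀ := by linear_combination hc₀
  have e2 : c ^ q = -c := by linear_combination hcq
  obtain ⟨s, hs⟩ := exists_norm_eq hF (c / c₀) (div_ne_zero hc h0) (by
    rw [div_pow, e1, e2, neg_div_neg_eq])
  have hs0 : s ≠ 0 := by
    rintro rfl
    rw [zero_pow (by omega)] at hs
    exact div_ne_zero hc h0 hs.symm
  have := h.conj (Units.mk0 s hs0)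
  simp only [mul_zero, Units.val_mk0] at this
  convert this using 1
  rw [← pow_succ', hs]
  field_simp

/-- The family with a fixed ratio `κ = β / N(a)`. -/
def Am (κ a : F) : Prop := D.Gd a (κ * a ^ (q + 1))

lemma cf_norm (hF : Fintype.card F = q ^ 2) (s : Fˣ) (a : F) :
    ((cf q s : F) * a) ^ (q + 1) = (s : F) * (s : F) ^ q * a ^ (q + 1) := by
  have hs : (s : F) ≠ 0 := s.ne_zero
  have hsq : (s : F) ^ q ≠ 0 := pow_ne_zero _ hs
  rw [coe_cf, pow_succ, pow_succ a, mul_pow, div_pow, ← pow_mul, mul_comm 2 q, pow_mul,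
    pow_q_pow_q hF]
  field_simp

lemma Am.cf {D : Data Γ hF} {κ a : F} (h : D.Am κ a) (s : Fˣ) : D.Am κ ((cf q s : F) * a) := by
  have := Gd.conj h s
  unfold Am
  rw [cf_norm hF]
  convert this using 1
  ring

lemma ctr_kappa (hF : Fintype.card F = q ^ 2) {κ : F} (hκ : κ + κ ^ q = 1) (a : F) : Ctr q a (κ * a ^ (q + 1)) := by
  unfold Ctr
  rw [mul_pow, norm_pow_q hF]
  linear_combination a ^ (q + 1) * hκ

lemma Am.swap {D : Data Γ hF} {κ a : F} (h : D.Am κ a) (hκ : κ + κ ^ q = 1) (hκ0 : κ ≠ 0)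
    (ha : a ≠ 0) : D.Am κ (1 / (κ ^ q * a ^ q)) := by
  have haq : a ^ q ≠ 0 := pow_ne_zero _ ha
  have hκq : κ ^ q ≠ 0 := pow_ne_zero _ hκ0
  have hβ : κ * a ^ (q + 1) ≠ 0 := mul_ne_zero hκ0 (pow_ne_zero _ ha)
  have := Gd.swap (β := Units.mk0 _ hβ) (ctr_kappa hF hκ a) h
  simp only [Units.val_mk0] at this
  unfold Am
  have e1 : (κ * a ^ (q + 1)) ^ q = κ ^ q * (a ^ q * a) := by
    rw [mul_pow, norm_pow_q hF, pow_succ]
  rw [e1] at this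
  convert this using 1
  · field_simp
  · rw [pow_succ, div_pow, mul_pow, pow_q_pow_q hF, pow_q_pow_q hF, one_pow]
    field_simp

lemma Am.rot {D : Data Γ hF} {κ a : F} (h : D.Am κ a) (hκ : κ + κ ^ q = 1) (hκ0 : κ ≠ 0)
    (ha : a ≠ 0) : D.Am κ (κ / κ ^ q * a) := by
  have haq : a ^ q ≠ 0 := pow_ne_zero _ ha
  have hκq : κ ^ q ≠ 0 := pow_ne_zero _ hκ0
  have h1 := h.swap hκ hκ0 ha
  have h2 := h1.swap hκ hκ0 (one_div_ne_zero (mul_ne_zero hκq haq))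
  convert h2 using 1
  rw [div_pow, mul_pow, pow_q_pow_q hF, pow_q_pow_q hF, one_pow]
  field_simp


/-- The family with ratio given by a norm one element `ν`. -/
def Pn (ν : F) : Prop := ∀ a : F, a ≠ 0 → D.Am (1 / (1 - ν)) a

lemma sub_pow_q (hF : Fintype.card F = q ^ 2) {ν : F} (hν0 : ν ≠ 0) (hνq : ν ^ q = ν⁻¹) :
    (1 - ν) ^ q = -(1 - ν) / ν := by
  rw [pow_q_sub hF, one_pow, hνq]
  field_simp
  ring

lemma kappa_add (hF : Fintype.card F = q ^ 2) {ν : F} (hν0 : ν ≠ 0) (hν1 : ν ≠ 1)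
    (hνq : ν ^ q = ν⁻¹) : 1 / (1 - ν) + (1 / (1 - ν)) ^ q = 1 := by
  have h1 : 1 - ν ≠ 0 := sub_ne_zero.2 hν1.symm
  rw [div_pow, one_pow, sub_pow_q hF hν0 hνq]
  field_simp
  ring

lemma kappa_ne {ν : F} (hν1 : ν ≠ 1) : 1 / (1 - ν) ≠ 0 :=
  one_div_ne_zero (sub_ne_zero.2 hν1.symm)

lemma kappa_rot (hF : Fintype.card F = q ^ 2) {ν : F} (hν0 : ν ≠ 0) (hν1 : ν ≠ 1)
    (hνq : ν ^ q = ν⁻¹) : (1 / (1 - ν)) / (1 / (1 - ν)) ^ q = -ν⁻¹ := by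
  have h1 : 1 - ν ≠ 0 := sub_ne_zero.2 hν1.symm
  rw [div_pow, one_pow, sub_pow_q hF hν0 hνq]
  field_simp

/-- From the root element with `a = 1` to all `a`, when `ν` is the specific generator. -/
lemma Pn_seed {D : Data Γ hF} {ν₀ : F} (hν₀ : ν₀ = (D.ζ : F) ^ q / D.ζ) (hν1 : ν₀ ≠ 1)
    (h1 : D.Am (1 / (1 - ν₀)) 1) : D.Pn ν₀ := by
  have hζ0 : (D.ζ : F) ≠ 0 := D.ζ.ne_zero
  have hζq : (D.ζ : F) ^ q ≠ 0 := pow_ne_zero _ hζ0
  have hν0 : ν₀ ≠ 0 := by rw [hν₀]; exact div_ne_zero hζq hζ0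
  have hνq : ν₀ ^ q = ν₀⁻¹ := by
    rw [hν₀, div_pow, pow_q_pow_q hF, inv_div]
  set κ := 1 / (1 - ν₀) with hκ
  have hκ1 : κ + κ ^ q = 1 := kappa_add hF hν0 hν1 hνq
  have hκ0 : κ ≠ 0 := kappa_ne hν1
  have hrot : κ / κ ^ q = -ν₀⁻¹ := kappa_rot hF hν0 hν1 hνq
  have iter : ∀ (n : ℕ) (a : F), a ≠ 0 → D.Am κ a → D.Am κ ((-ν₀⁻¹) ^ n * a) := by
    intro n
    induction n with
    | zero => intro a _ h; simpa using h
    | succ n ih =>
      intro a ha h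
      have h2 := ih a ha h
      have hne : (-ν₀⁻¹) ^ n * a ≠ 0 :=
        mul_ne_zero (pow_ne_zero _ (neg_ne_zero.2 (inv_ne_zero hν0))) ha
      have h3 := h2.rot hκ1 hκ0 hne
      rw [hrot] at h3
      convert h3 using 1
      ring
  have hcf : (((cf q (-1 : Fˣ)) : Fˣ) : F) = -1 := by
    rw [coe_cf]
    simp only [Units.val_neg, Units.val_one]
    have : (-1 : F) ^ q = -1 := by
      rw [pow_q_neg hF, one_pow]
    rw [this]
    simp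
  have hcfζ : (((cf q D.ζ) : Fˣ) : F) * ν₀ = D.ζ := by
    rw [coe_cf, hν₀]
    field_simp
  have step : ∀ a : F, a ≠ 0 → D.Am κ a → D.Am κ ((D.ζ : F) * a) := by
    intro a ha h
    have h2 := iter q a ha h
    have e1 : (-ν₀⁻¹) ^ q = -ν₀ := by
      rw [pow_q_neg hF, inv_pow, hνq, inv_inv]
    rw [e1] at h2
    have h3 := h2.cf (-1)
    rw [hcf] at h3
    have h4 := h3.cf D.ζ
    convert h4 using 1
    rw [← hcfζ]
    ring
  intro a ha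
  obtain ⟨n, hn⟩ := D.hζ (Units.mk0 a ha)
  have ea : a = (D.ζ : F) ^ n := by
    have := congrArg Units.val hn
    simpa using this
  change D.Am κ a
  rw [ea]
  clear hn ea
  induction n with
  | zero => simpa using h1
  | succ n ih =>
    have := step _ (pow_ne_zero n hζ0) ih
    convert this using 1
    ring

/-- The composition of two families. -/
lemma Pn_mul {D : Data Γ hF} {ν ν' : F} (hν0 : ν ≠ 0) (hν1 : ν ≠ 1) (hνq : ν ^ q = ν⁻¹)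
    (hν'0 : ν' ≠ 0) (hν'1 : ν' ≠ 1) (hν'q : ν' ^ q = ν'⁻¹) (hprod : ν * ν' ≠ 1)
    (h : D.Pn ν) (h' : D.Pn ν') (hZ : ∀ c : F, c ≠ 0 → c + c ^ q = 0 → D.Gd 0 c) :
    D.Pn (ν * ν') := by
  intro a'' ha''
  have h1ν : 1 - ν ≠ 0 := sub_ne_zero.2 hν1.symm
  have h1ν' : 1 - ν' ≠ 0 := sub_ne_zero.2 hν'1.symm
  have hD0 : 1 - ν * ν' ≠ 0 := sub_ne_zero.2 hprod.symm
  obtain ⟨d₀, hd₀⟩ : ∃ d₀, d₀ = 1 - ν * ν' := ⟨_, rfl⟩
  rw [← hd₀] at hD0
  obtain ⟨ab, hab⟩ : ∃ ab, ab = a'' ^ q := ⟨_, rfl⟩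
  have hab0 : ab ≠ 0 := by rw [hab]; exact pow_ne_zero _ ha''
  have eν := sub_pow_q hF hν0 hνq
  have eν' := sub_pow_q hF hν'0 hν'q
  have ed : d₀ ^ q = -d₀ / (ν * ν') := by
    have : (ν * ν') ^ q = (ν * ν')⁻¹ := by
      rw [mul_pow, hνq, hν'q, mul_inv]
    rw [hd₀]
    exact sub_pow_q hF (mul_ne_zero hν0 hν'0) this
  obtain ⟨a, ha_def⟩ : ∃ a, a = a'' * (1 - ν) / d₀ := ⟨_, rfl⟩
  obtain ⟨a', ha'_def⟩ : ∃ a', a' = a'' * ν * (1 - ν') / d₀ := ⟨_, rfl⟩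
  have eaq : a ^ q = ab * (1 - ν) * ν' / d₀ := by
    rw [ha_def, div_pow, mul_pow, eν, ed, ← hab]
    field_simp
  have ea'q : a' ^ q = ab * (1 - ν') / d₀ := by
    rw [ha'_def, div_pow, mul_pow, mul_pow, hνq, eν', ed, ← hab]
    field_simp
  have ha0 : a ≠ 0 := by rw [ha_def]; exact div_ne_zero (mul_ne_zero ha'' h1ν) hD0
  have ha'0 : a' ≠ 0 := by rw [ha'_def]; exact div_ne_zero (mul_ne_zero (mul_ne_zero ha'' hν0) h1ν') hD0
  have hκ := kappa_add hF hν0 hν1 hνq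
  have hκ' := kappa_add hF hν'0 hν'1 hν'q
  have hβ : 1 / (1 - ν) * a ^ (q + 1) ≠ 0 := mul_ne_zero (kappa_ne hν1) (pow_ne_zero _ ha0)
  have hβ' : 1 / (1 - ν') * a' ^ (q + 1) ≠ 0 := mul_ne_zero (kappa_ne hν'1) (pow_ne_zero _ ha'0)
  have hG := h a ha0
  have hG' := h' a' ha'0
  unfold Am at hG hG'
  have key := Gd.comp (D := D) (β := Units.mk0 _ hβ) (β' := Units.mk0 _ hβ')
    (ctr_kappa hF hκ a) (ctr_kappa hF hκ' a') hG hG' ?_
    (β'' := 1 / d₀ * (a'' * ab)) ?_ ?_ hZ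
  · have e1 : a + a' = a'' := by
      rw [ha_def, ha'_def, hd₀]
      rw [hd₀] at hD0
      field_simp
      ring
    rw [e1] at key
    unfold Am
    convert key using 1
    rw [pow_succ, mul_comm a'' ab, hab, hd₀]
  · simp only [Units.val_mk0]
    have e1 : a ^ (q + 1) = a ^ q * a := pow_succ _ _
    have e2 : a' ^ (q + 1) = a' ^ q * a' := pow_succ _ _
    have e3 : (1 / (1 - ν')) ^ q = 1 / (-(1 - ν') / ν') := by rw [div_pow, one_pow, eν']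
    rw [mul_pow, norm_pow_q hF, e3, e1, e2, eaq, ea'q, ha_def, ha'_def]
    field_simp
    ring
  · simp only [Units.val_mk0]
    have e1 : a ^ (q + 1) = a ^ q * a := pow_succ _ _
    have e2 : a' ^ (q + 1) = a' ^ q * a' := pow_succ _ _
    rw [e1, e2, eaq, ea'q, ha_def, ha'_def]
    field_simp
    rw [hd₀]
    ring
  · exact mul_ne_zero (one_div_ne_zero hD0) (mul_ne_zero ha'' hab0)

/-- All the families. -/
lemma Pn_pow {D : Data Γ hF} {ν₀ : F} (hν0 : ν₀ ≠ 0) (hνq : ν₀ ^ q = ν₀⁻¹)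
    (hord : ∀ k : ℕ, 1 ≤ k → k ≤ q → ν₀ ^ k ≠ 1) (h : D.Pn ν₀)
    (hZ : ∀ c : F, c ≠ 0 → c + c ^ q = 0 → D.Gd 0 c) (k : ℕ) (h1 : 1 ≤ k) (hk : k ≤ q) :
    D.Pn (ν₀ ^ k) := by
  induction k, h1 using Nat.le_induction with
  | base => simpa using h
  | succ k h1 ih =>
    rw [pow_succ]
    refine Pn_mul (pow_ne_zero _ hν0) (hord k h1 (by omega)) ?_ hν0 ?_ hνq ?_ (ih (by omega)) h hZ
    · rw [← pow_mul, mul_comm, pow_mul, hνq, inv_pow]
    · have := hord 1 le_rfl (by omega)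
      simpa using this
    · rw [← pow_succ]
      exact hord (k + 1) (by omega) hk

/-- All root elements are in the cell. -/
theorem all_good {D : Data Γ hF} {ν₀ : F} (hν₀ : ν₀ = (D.ζ : F) ^ q / D.ζ)
    (hord : ∀ k : ℕ, 1 ≤ k → k ≤ q → ν₀ ^ k ≠ 1)
    (hgen : ∀ ν : F, ν ≠ 0 → ν ^ q = ν⁻¹ → ν ≠ 1 → ∃ k : ℕ, 1 ≤ k ∧ k ≤ q ∧ ν = ν₀ ^ k)
    (h2 : 1 ≤ q) (h1 : D.Am (1 / (1 - ν₀)) 1)
    (hZ : ∀ c : F, c ≠ 0 → c + c ^ q = 0 → D.Gd 0 c)
    (a β : F) (hc : Ctr q a β) (hβ : β ≠ 0) : D.Gd a β := by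
  have hζ0 : (D.ζ : F) ≠ 0 := D.ζ.ne_zero
  have hζq : (D.ζ : F) ^ q ≠ 0 := pow_ne_zero _ hζ0
  have hν0 : ν₀ ≠ 0 := by rw [hν₀]; exact div_ne_zero hζq hζ0
  have hνq : ν₀ ^ q = ν₀⁻¹ := by
    rw [hν₀, div_pow, pow_q_pow_q hF, inv_div]
  have hν1 : ν₀ ≠ 1 := by
    have := hord 1 le_rfl h2
    simpa using this
  have hP := Pn_seed hν₀ hν1 h1
  by_cases ha : a = 0
  · subst ha
    refine hZ β hβ ?_
    unfold Ctr at hc
    simpa using hc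
  · have hbq : β ^ q ≠ 0 := pow_ne_zero _ hβ
    have hN : a ^ (q + 1) ≠ 0 := pow_ne_zero _ ha
    unfold Ctr at hc
    set ν := 1 - a ^ (q + 1) / β with hν
    have e1 : ν = -β ^ q / β := by
      rw [hν, ← hc]
      field_simp
      ring
    have h0 : ν ≠ 0 := by
      rw [e1]
      exact div_ne_zero (neg_ne_zero.2 hbq) hβ
    have h1' : ν ≠ 1 := by
      rw [hν]
      intro h
      have : a ^ (q + 1) / β = 0 := by linear_combination -h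
      exact div_ne_zero hN hβ this
    have hq' : ν ^ q = ν⁻¹ := by
      rw [e1, div_pow, pow_q_neg hF, pow_q_pow_q hF, inv_div]
      field_simp
    obtain ⟨k, hk1, hk2, hk⟩ := hgen ν h0 hq' h1'
    have hPk := Pn_pow hν0 hνq hord hP hZ k hk1 hk2 a ha
    unfold Am at hPk
    rw [← hk] at hPk
    convert hPk using 1
    have : 1 - ν = a ^ (q + 1) / β := by rw [hν]; ring
    rw [this]
    field_simp

/-- The cover of `Γ`. -/
theorem cover (hgen : closure ((D.P : Set Γ) ∪ {D.w}) = ⊤)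
    (hall : ∀ a β : F, Ctr q a β → β ≠ 0 → D.Gd a β) (g : Γ) :
    g ∈ D.P ∨ ∃ b₁ ∈ D.P, ∃ b₂ ∈ D.P, g = b₁ * D.w * b₂ := by
  have hq := Cfsg.Agent.Lib.Classical.Herm.SU3Gen.q_ne_zero hF
  have hg : g ∈ closure ((D.P : Set Γ) ∪ {D.w}) := by rw [hgen]; trivial
  -- right multiplication by `w`
  have hW : ∀ g : Γ, (g ∈ D.P ∨ ∃ b₁ ∈ D.P, ∃ b₂ ∈ D.P, g = b₁ * D.w * b₂) →
      (g * D.w ∈ D.P ∨ ∃ b₁ ∈ D.P, ∃ b₂ ∈ D.P, g * D.w = b₁ * D.w * b₂) := by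
    rintro g (hg | ⟨b₁, h₁, b₂, h₂, rfl⟩)
    · exact Or.inr ⟨g, hg, 1, one_mem _, by group⟩
    · obtain ⟨a, β, s, hc, e⟩ := D.hP1 b₂ h₂
      obtain ⟨u, hu, eu⟩ := D.lift_X hc
      obtain ⟨k, hk, ek⟩ := D.lift_T s
      have e2 : b₂ = u * D.t ^ k := by
        apply D.inj h₂ (mul_mem hu hk)
        rw [e, map_mul, eu, ek]
      obtain ⟨hs, -⟩ := D.star hk ek
      have hww := D.hww
      have hwi := D.w_inv
      by_cases hβ : β = 0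
      · left
        subst hβ
        have ha : a = 0 := by
          unfold Ctr at hc
          simp only [add_zero, zero_pow hq] at hc
          exact pow_eq_zero_iff (by omega) |>.1 hc.symm
        subst ha
        have hu1 : u = 1 := D.hinj u hu (by rw [eu, XS_zero hF])
        subst hu1
        subst e2
        have : b₁ * D.w * (1 * D.t ^ k) * D.w = b₁ * (D.w * D.t ^ k * D.w⁻¹) := by
          rw [hwi]; group
        rw [this]
        exact mul_mem h₁ hs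
      · right
        obtain ⟨b, hb, b', hb', ec⟩ := hall a β hc hβ u hu eu
        refine ⟨b₁ * b, mul_mem h₁ hb, b' * (D.w * D.t ^ k * D.w⁻¹), mul_mem hb' hs, ?_⟩
        rw [e2]
        calc b₁ * D.w * (u * D.t ^ k) * D.w
            = b₁ * (D.w * u * D.w⁻¹) * (D.w * D.t ^ k * D.w⁻¹) * (D.w * D.w) := by
              group
          _ = _ := by rw [ec, hww]; group
  have hPr : ∀ g y : Γ, y ∈ D.P → (g ∈ D.P ∨ ∃ b₁ ∈ D.P, ∃ b₂ ∈ D.P, g = b₁ * D.w * b₂) →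
      (g * y ∈ D.P ∨ ∃ b₁ ∈ D.P, ∃ b₂ ∈ D.P, g * y = b₁ * D.w * b₂) := by
    rintro g y hy (hg | ⟨b₁, h₁, b₂, h₂, rfl⟩)
    · exact Or.inl (mul_mem hg hy)
    · exact Or.inr ⟨b₁, h₁, b₂ * y, mul_mem h₂ hy, by group⟩
  induction hg using closure_induction_right with
  | one => exact Or.inl (one_mem _)
  | mul_right x _ y hy ih =>
    rcases hy with hy | hy
    · exact hPr x y hy ih
    · rw [Set.mem_singleton_iff] at hy
      subst hy
      exact hW x ih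
  | mul_inv_cancel x _ y hy ih =>
    rcases hy with hy | hy
    · exact hPr x y⁻¹ (inv_mem hy) ih
    · rw [Set.mem_singleton_iff] at hy
      subst hy
      rw [D.w_inv]
      exact hW x ih

/-- `π` is injective with range `G0`. -/
theorem bijective (hgen : closure ((D.P : Set Γ) ∪ {D.w}) = ⊤)
    (hall : ∀ a β : F, Ctr q a β → β ≠ 0 → D.Gd a β) :
    Function.Injective D.π ∧ D.π.range = G0 F q := by
  have hc := D.cover hgen hall
  constructor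
  · rw [injective_iff_map_eq_one]
    intro g hg
    rcases hc g with h | ⟨b₁, h₁, b₂, h₂, rfl⟩
    · exact D.hinj g h hg
    · exfalso
      rw [map_mul, map_mul, D.hw] at hg
      have : (WS : S3 F) = (D.π b₁)⁻¹ * (D.π b₂)⁻¹ := by
        have h3 : (WS : S3 F) = (D.π b₁)⁻¹ * (D.π b₁ * WS * D.π b₂) * (D.π b₂)⁻¹ := by group
        rw [h3, hg]; group
      apply WS_not_mem_BM hF
      rw [this]
      exact mul_mem (inv_mem (D.hP1 _ h₁)) (inv_mem (D.hP1 _ h₂))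
  · apply le_antisymm
    · rintro _ ⟨g, rfl⟩
      rcases hc g with h | ⟨b₁, h₁, b₂, h₂, rfl⟩
      · exact BM_le_G0 hF (D.hP1 g h)
      · rw [map_mul, map_mul, D.hw]
        exact mul_mem (mul_mem (BM_le_G0 hF (D.hP1 _ h₁)) (WS_mem_G0 hF)) (BM_le_G0 hF (D.hP1 _ h₂))
    · intro g hg
      rcases G0_cases hF hg with h | ⟨a, β, g', hc', hg', rfl⟩
      · obtain ⟨γ, -, e⟩ := D.hP2 g h
        exact ⟨γ, e⟩
      · obtain ⟨γ, -, e⟩ := D.lift_X hc'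
        obtain ⟨γ', -, e'⟩ := D.hP2 g' hg'
        exact ⟨γ * D.w * γ', by rw [map_mul, map_mul, e, e', D.hw]⟩

end Data

end Cfsg.Agent.Lib.PresSU.Cell
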