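import Cfsg.Agent.Lib.PresSU.Borel
import Cfsg.Agent.Lib.PresSU.Cell
import Cfsg.Agent.Lib.PresSL.Glue

/-!
# The presentation of `SU₃(q)`
-/

set_option autoImplicit false
set_option linter.unusedSectionVars false
set_option linter.unusedVariables false
set_option linter.style.haveILetI false
set_option linter.flexible false

namespace Cfsg.Agent.Lib.PresSU.Main

open Polynomial Subgroup IntermediateField Matrix
open Cfsg.Agent.Lib.Presentations.Additive
open Cfsg.Agent.Lib.Presentations.Odd (map_xx)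
open Cfsg.Agent.Lib.PresSU.Model Cfsg.Agent.Lib.Classical.Herm.Basic
open Cfsg.Agent.Lib.Classical.Herm.SU3Gen (G0 Up all_level all_up)
open Cfsg.Agent.Lib.PresSU.Field Cfsg.Agent.Lib.PresSU.Borel

universe u

section Gen

variable {F : Type*} [Field F] [Fintype F] {q : ℕ} (hF : Fintype.card F = q ^ 2) {p : ℕ}
  [Fact p.Prime] [Algebra (ZMod p) F] {ζ : Fˣ} {κ : F}

lemma aeval_mem_subring (x : F) (f : (ZMod p)[X]) : aeval x f ∈ Subring.closure ({x} : Set F) := by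
  have hc : ∀ c : ZMod p, algebraMap (ZMod p) F c ∈ Subring.closure ({x} : Set F) := by
    intro c
    have e : algebraMap (ZMod p) F c = ((c.val : ℕ) : F) := by
      rw [← map_natCast (algebraMap (ZMod p) F), ZMod.natCast_zmod_val]
    rw [e]
    exact _root_.natCast_mem _ _
  have hx : x ∈ Subring.closure ({x} : Set F) := Subring.subset_closure (Set.mem_singleton x)
  rw [aeval_eq_sum_range]
  refine Subring.sum_mem _ fun i _ => ?_
  rw [Algebra.smul_def]
  exact Subring.mul_mem _ (hc _) (Subring.pow_mem _ hx _)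

include hF

lemma ev₂_mem_BM (hκ : Ctr q 1 κ) (w : FreeGroup (Fin 2)) : ev₂ q ζ κ w ∈ BM F hF := by
  induction w using FreeGroup.induction_on with
  | C1 => rw [map_one]; exact one_mem _
  | of i =>
    fin_cases i
    · exact (by simpa using HS_mem_BM hF ζ)
    · exact (by simpa using XS_mem_BM hF hκ)
  | inv_of i h => rw [map_inv]; exact inv_mem h
  | mul x y hx hy => rw [map_mul]; exact mul_mem hx hy

lemma exists_ev₂ (hgen : ∀ s : Fˣ, ∃ n : ℕ, s = ζ ^ n) (hκ : Ctr q 1 κ)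
    (hτs : ∀ c : F, ∃ f : (ZMod p)[X], aeval ((cf q ζ : Fˣ) : F) f = c) {g : S3 F}
    (hg : g ∈ BM F hF) : ∃ w, ev₂ q ζ κ w = g := by
  set H := (ev₂ q ζ κ).range with hHdef
  have hHG : H ≤ G0 F q := by
    rintro _ ⟨w, rfl⟩
    exact BM_le_G0 hF (ev₂_mem_BM hF hκ w)
  have hT : HS q ζ ∈ H := ⟨T₂, ev₂_T⟩
  have hX : XS q 1 κ ∈ H := ⟨X₂, ev₂_X⟩
  have hζ0 : (ζ : F) ≠ 0 := ζ.ne_zero
  have hρ : Subring.closure ({((HS q ζ : S3 F) : Matrix (Fin 3) (Fin 3) F) 0 0 /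
      ((HS q ζ : S3 F) : Matrix (Fin 3) (Fin 3) F) 1 1} : Set F) = ⊤ := by
    have e : ((HS q ζ : S3 F) : Matrix (Fin 3) (Fin 3) F) 0 0 /
      ((HS q ζ : S3 F) : Matrix (Fin 3) (Fin 3) F) 1 1 = ((cf q ζ : Fˣ) : F) := by
      rw [coe_HS, coe_cf]
      simp
      field_simp
    rw [e, eq_top_iff]
    intro c _
    obtain ⟨f, rfl⟩ := hτs c
    exact aeval_mem_subring _ f
  have hone : Up H q (1 : F) κ := ⟨_, hX, rfl⟩
  have hall := all_level hF hHG hT (by simp [coe_HS]) (by simp [coe_HS]) (by simp [coe_HS]) hρ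
    one_ne_zero hone
  obtain ⟨θ, hθ⟩ := Cfsg.Agent.Lib.Classical.Herm.Tv.exists_trace_eq hF (c := 1) (one_pow q)
  have hXall : ∀ {a β : F}, Ctr q a β → XS q a β ∈ H := by
    intro a β h
    obtain ⟨g, hg, e⟩ := all_up hF hHG hθ hall h
    have : g = XS q a β := ext_S3 e
    rwa [← this]
  have hHall : ∀ s : Fˣ, HS q s ∈ H := by
    intro s
    obtain ⟨n, rfl⟩ := hgen s
    rw [HS_pow]
    exact pow_mem hT n
  obtain ⟨a, β, s, hc, rfl⟩ := hg
  exact mul_mem (hXall hc) (hHall s)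

omit hF in
lemma XS_HS_entries (a β : F) (s : Fˣ) :
    ((XS q a β * HS q s : S3 F) : Matrix (Fin 3) (Fin 3) F) 0 0 = s ∧
    ((XS q a β * HS q s : S3 F) : Matrix (Fin 3) (Fin 3) F) 0 1 = a * ((s : F) ^ q / s) ∧
    ((XS q a β * HS q s : S3 F) : Matrix (Fin 3) (Fin 3) F) 0 2 = β * ((s : F) ^ q)⁻¹ := by
  rw [Matrix.SpecialLinearGroup.coe_mul, coe_XS, coe_HS, Cfsg.Agent.Lib.Classical.Herm.SU3Gen.xM]
  simp [Matrix.mul_apply, Fin.sum_univ_three]

/-- The Borel subgroup has at least the expected order. -/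
lemma card_BM_ge {β₀ : F} (hβ : β₀ ≠ 0) (htr : β₀ + β₀ ^ q = 0) (hξ : xi q ζ ^ q = xi q ζ) :
    Nat.card ((ZMod p)⟮xi q ζ⟯) * (Nat.card F * (q ^ 2 - 1)) ≤ Nat.card (BM F hF) := by
  classical
  obtain ⟨θ, hθ⟩ := Cfsg.Agent.Lib.Classical.Herm.Tv.exists_trace_eq hF (c := 1) (one_pow q)
  have hct : ∀ (c : (ZMod p)⟮xi q ζ⟯) (a : F), Ctr q a (θ * a ^ (q + 1) + (c : F) * β₀) := by
    intro c a
    unfold Ctr
    rw [pow_q_add hF, mul_pow, mul_pow, norm_pow_q hF, (adjoin_fixed hF hξ c).1]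
    linear_combination a ^ (q + 1) * hθ + (c : F) * htr
  let f : (ZMod p)⟮xi q ζ⟯ × F × Fˣ → BM F hF := fun z =>
    ⟨XS q z.2.1 (θ * z.2.1 ^ (q + 1) + (z.1 : F) * β₀) * HS q z.2.2, _, _, _, hct z.1 z.2.1, rfl⟩
  have hf : Function.Injective f := by
    rintro ⟨c, a, s⟩ ⟨c', a', s'⟩ h
    have h' : XS q a (θ * a ^ (q + 1) + (c : F) * β₀) * HS q s =
        XS q a' (θ * a' ^ (q + 1) + (c' : F) * β₀) * HS q s' := congrArg Subtype.val h
    obtain ⟨e1, e2, e3⟩ := XS_HS_entries (q := q) a (θ * a ^ (q + 1) + (c : F) * β₀) s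
    obtain ⟨e1', e2', e3'⟩ := XS_HS_entries (q := q) a' (θ * a' ^ (q + 1) + (c' : F) * β₀) s'
    rw [h'] at e1 e2 e3
    have hs : (s : F) = s' := e1.symm.trans e1'
    have hs' : s = s' := Units.ext hs
    subst hs'
    have h0 : (s : F) ≠ 0 := s.ne_zero
    have hq0 : (s : F) ^ q ≠ 0 := pow_ne_zero _ h0
    have ha : a = a' := by
      have := e2.symm.trans e2'
      exact mul_right_cancel₀ (div_ne_zero hq0 h0) this
    subst ha
    have hb := e3.symm.trans e3'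
    have hb' := mul_right_cancel₀ (inv_ne_zero hq0) hb
    have hc : (c : F) = c' := by
      have : (c : F) * β₀ = (c' : F) * β₀ := add_left_cancel hb'
      exact mul_right_cancel₀ hβ this
    rw [Subtype.ext hc]
  have h1 := Nat.card_le_card_of_injective f hf
  rw [Nat.card_prod, Nat.card_prod] at h1
  have h2 : Nat.card Fˣ = q ^ 2 - 1 := by
    rw [Nat.card_eq_fintype_card, Fintype.card_units, hF]
  rwa [h2] at h1

end Gen

/-- Generators. -/
abbrev T : FreeGroup (Fin 3) := FreeGroup.of 0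
/-- Generators. -/
abbrev X : FreeGroup (Fin 3) := FreeGroup.of 1
/-- Generators. -/
abbrev W : FreeGroup (Fin 3) := FreeGroup.of 2

/-- The embedding of the words for the Borel subgroup. -/
noncomputable def ι : FreeGroup (Fin 2) →* FreeGroup (Fin 3) := FreeGroup.lift ![T, X]

@[simp] lemma ι_T : ι T₂ = T := by simp [ι]
@[simp] lemma ι_X : ι X₂ = X := by simp [ι]

section Main

variable {F : Type*} [Field F] [Fintype F] {q : ℕ}

/-- Evaluation. -/
noncomputable def ev (q : ℕ) (ζ : Fˣ) (κ : F) : FreeGroup (Fin 3) →* S3 F :=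
  FreeGroup.lift ![HS q ζ, XS q 1 κ, WS]

@[simp] lemma ev_T {ζ : Fˣ} {κ : F} : ev q ζ κ T = HS q ζ := by simp [ev]
@[simp] lemma ev_X {ζ : Fˣ} {κ : F} : ev q ζ κ X = XS q 1 κ := by simp [ev]
@[simp] lemma ev_W {ζ : Fˣ} {κ : F} : ev q ζ κ W = WS := by simp [ev]

lemma ev_ι {ζ : Fˣ} {κ : F} (w : FreeGroup (Fin 2)) : ev q ζ κ (ι w) = ev₂ q ζ κ w := by
  have : (ev q ζ κ).comp ι = ev₂ q ζ κ := by
    apply FreeGroup.ext_hom
    intro i
    fin_cases i
    · simp [ι]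
    · simp [ι]
  exact DFunLike.congr_fun this w

variable (hF : Fintype.card F = q ^ 2)
include hF

/-- The presentation of the group `G0`. -/
theorem main_G0 (h3 : 3 ≤ q) (h5 : q ≠ 5) :
    ∃ rels : Finset (FreeGroup (Fin 3)), rels.card ≤ 20 ∧
      Nonempty (PresentedGroup (↑rels : Set (FreeGroup (Fin 3))) ≃* G0 F q) := by
  classical
  obtain ⟨p, hchar⟩ := CharP.exists F
  haveI : Fact p.Prime := ⟨CharP.char_is_prime F p⟩
  letI : Algebra (ZMod p) F := ZMod.algebra F p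
  obtain ⟨ζ, hgen, hord⟩ := exists_zeta hF
  have h2 : q ≠ 2 := by omega
  have hq1 : 1 ≤ q := by omega
  have hq0 := Cfsg.Agent.Lib.Classical.Herm.SU3Gen.q_ne_zero hF
  have hζ0 : (ζ : F) ≠ 0 := ζ.ne_zero
  have hζq : (ζ : F) ^ q ≠ 0 := pow_ne_zero _ hζ0
  set ν₀ : F := (ζ : F) ^ q / ζ with hν₀
  have hord' := nu_ord hF hord
  have hν1 : ν₀ ≠ 1 := by
    have := hord' 1 le_rfl hq1
    simpa using this
  have hν0 : ν₀ ≠ 0 := div_ne_zero hζq hζ0
  have hνq : ν₀ ^ q = ν₀⁻¹ := by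
    rw [hν₀, div_pow, pow_q_pow_q hF, inv_div]
  set κ : F := 1 / (1 - ν₀) with hκdef
  have hκ0 : κ ≠ 0 := Cell.Data.kappa_ne hν1
  have hκ : Ctr q 1 κ := by
    unfold Ctr
    rw [one_pow]
    exact Cell.Data.kappa_add hF hν0 hν1 hνq
  obtain ⟨a, E, hβ, hlen, hmod, hbd⟩ := borel_list (p := p) (κ := κ) hF hgen hord h3 h5 hκ
  have hτs := tau_gen (p := p) hF hord h2 (by omega : q ≠ 5)
  have hξfix : xi q ζ ^ q = xi q ζ := xi_fixed hF hord
  set β : Fˣ := Units.mk0 (βz q ζ a) hβ with hβu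
  have hβc : ((β : Fˣ) : F) = βz q ζ a := rfl
  have hzc : Ctr q (0 : F) (β : F) := by
    unfold Ctr
    rw [hβc, βz_trace hF a, zero_pow (by omega)]
  have hbz := bruhat hF 0 β hzc
  have hbx := bruhat hF 1 (Units.mk0 κ hκ0) hκ
  have hmemB : ∀ {a' β' : F} {s : Fˣ}, Ctr q a' β' → XS q a' β' * HS q s ∈ BM F hF :=
    fun h => mul_mem (XS_mem_BM hF h) (HS_mem_BM hF _)
  obtain ⟨w₁, hw₁⟩ := exists_ev₂ (p := p) (κ := κ) hF hgen hκ hτs
    (hmemB (s := (β ^ q)⁻¹) (Cell.ctrL hF hzc))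
  obtain ⟨w₂, hw₂⟩ := exists_ev₂ (p := p) (κ := κ) hF hgen hκ hτs (XS_mem_BM hF (Cell.ctrV hF hzc))
  obtain ⟨w₃, hw₃⟩ := exists_ev₂ (p := p) (κ := κ) hF hgen hκ hτs
    (hmemB (s := ((Units.mk0 κ hκ0) ^ q)⁻¹) (Cell.ctrL hF (β := Units.mk0 κ hκ0) hκ))
  obtain ⟨w₄, hw₄⟩ := exists_ev₂ (p := p) (κ := κ) hF hgen hκ hτs
    (XS_mem_BM hF (Cell.ctrV hF (β := Units.mk0 κ hκ0) hκ))
  set z := zz T₂ X₂ a with hz
  set rl : List (FreeGroup (Fin 3)) := E.map ι ++ [W * W, W * T * W⁻¹ * T ^ q,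
    W * ι z * W⁻¹ * (ι w₁ * W * ι w₂)⁻¹, W * X * W⁻¹ * (ι w₃ * W * ι w₄)⁻¹] with hrl
  have hrel : ∀ r ∈ rl, ev q ζ κ r = 1 := by
    intro r hr
    simp only [hrl, List.mem_append, List.mem_map, List.mem_cons, List.not_mem_nil, or_false] at hr
    rcases hr with ⟨r', hr', rfl⟩ | rfl | rfl | rfl | rfl
    · rw [ev_ι]
      exact hmod r' hr'
    · rw [map_mul, ev_W, WS_mul_WS]
    · simp only [map_mul, map_inv, map_pow, ev_T, ev_W]
      rw [WS_HS hF, ← HS_pow]
      group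
    · rw [map_mul, map_inv, mul_inv_eq_one]
      simp only [map_mul, map_inv, ev_W, ev_ι]
      rw [hw₁, hw₂, ev_zz hF]
      exact hbz
    · rw [map_mul, map_inv, mul_inv_eq_one]
      simp only [map_mul, map_inv, ev_W, ev_X, ev_ι]
      rw [hw₃, hw₄]
      exact hbx
  have hrllen : rl.length ≤ 20 := by
    simp only [hrl, List.length_append, List.length_map, List.length_cons, List.length_nil]
    omega
  set R : Set (FreeGroup (Fin 3)) := ↑rl.toFinset with hR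
  have hmemR : ∀ r, r ∈ R ↔ r ∈ rl := by
    intro r
    simp [hR]
  let f : Fin 3 → S3 F := ![HS q ζ, XS q 1 κ, WS]
  have hrelf : ∀ r ∈ R, FreeGroup.lift f r = 1 := fun r hr => hrel r ((hmemR r).1 hr)
  let π : PresentedGroup R →* S3 F := PresentedGroup.toGroup hrelf
  let φ : FreeGroup (Fin 3) →* PresentedGroup R := PresentedGroup.mk R
  have hπφ : ∀ r, π (φ r) = ev q ζ κ r := fun r => rfl
  have hφ1 : ∀ r ∈ rl, φ r = 1 := fun r hr => PresentedGroup.one_of_mem ((hmemR r).2 hr)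
  have hφs : ∀ g : PresentedGroup R, ∃ r, φ r = g := PresentedGroup.mk_surjective R
  obtain ⟨t, ht⟩ : ∃ t, t = φ T := ⟨_, rfl⟩
  obtain ⟨x, hx⟩ : ∃ x, x = φ X := ⟨_, rfl⟩
  obtain ⟨w, hw⟩ : ∃ w, w = φ W := ⟨_, rfl⟩
  set P : Subgroup (PresentedGroup R) := closure ({t, x} : Set (PresentedGroup R)) with hP
  have htP : t ∈ P := Subgroup.subset_closure (by simp)
  have hxP : x ∈ P := Subgroup.subset_closure (by simp)
  let φ₂ : FreeGroup (Fin 2) →* P := FreeGroup.lift ![⟨t, htP⟩, ⟨x, hxP⟩]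
  have hφ₂T : φ₂ T₂ = ⟨t, htP⟩ := by simp [φ₂]
  have hφ₂X : φ₂ X₂ = ⟨x, hxP⟩ := by simp [φ₂]
  have hφ₂ : ∀ w' : FreeGroup (Fin 2), ((φ₂ w' : P) : PresentedGroup R) = φ (ι w') := by
    have : P.subtype.comp φ₂ = φ.comp ι := by
      apply FreeGroup.ext_hom
      intro i
      fin_cases i
      · simp [φ₂, ι, ht]
      · simp [φ₂, ι, hx]
    intro w'
    exact DFunLike.congr_fun this w'
  have hιP : ∀ w' : FreeGroup (Fin 2), φ (ι w') ∈ P := fun w' => by
    rw [← hφ₂]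
    exact (φ₂ w').2
  have htop : closure ({φ₂ T₂, φ₂ X₂} : Set P) = ⊤ := by
    rw [hφ₂T, hφ₂X]
    have := Subgroup.closure_closure_coe_preimage (k := ({t, x} : Set (PresentedGroup R)))
    convert this using 2
    ext y
    constructor
    · rintro (rfl | hy)
      · simp
      · rw [Set.mem_singleton_iff] at hy
        subst hy
        simp
    · intro hy
      rcases hy with hy | hy
      · exact Or.inl (Subtype.ext hy)
      · exact Or.inr (Subtype.ext hy)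
  obtain ⟨hfin, hcard⟩ := hbd P φ₂ htop (fun r hr => Subtype.ext (by
    rw [hφ₂]
    exact hφ1 _ (List.mem_append_left _ (List.mem_map.2 ⟨r, hr, rfl⟩))))
  have hP1 : ∀ γ ∈ P, π γ ∈ BM F hF := by
    intro γ hγ
    induction hγ using closure_induction with
    | mem y hy =>
      rcases hy with rfl | hy
      · rw [ht, hπφ, ev_T]
        exact HS_mem_BM hF ζ
      · rw [Set.mem_singleton_iff] at hy
        subst hy
        rw [hx, hπφ, ev_X]
        exact XS_mem_BM hF hκ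
    | one => rw [map_one]; exact one_mem _
    | mul y z _ _ hy hz => rw [map_mul]; exact mul_mem hy hz
    | inv y _ hy => rw [map_inv]; exact inv_mem hy
  have hP2 : ∀ g ∈ BM F hF, ∃ γ ∈ P, π γ = g := by
    intro g hg
    obtain ⟨w', hw'⟩ := exists_ev₂ (p := p) (κ := κ) hF hgen hκ hτs hg
    exact ⟨φ (ι w'), hιP w', by rw [hπφ, ev_ι, hw']⟩
  have hinj : ∀ γ ∈ P, π γ = 1 → γ = 1 := by
    let f₀ : P → BM F hF := fun γ => ⟨π γ, hP1 γ γ.2⟩
    have hf₀ : Function.Surjective f₀ := by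
      rintro ⟨g, hg⟩
      obtain ⟨γ, hγ, e⟩ := hP2 g hg
      exact ⟨⟨γ, hγ⟩, Subtype.ext e⟩
    have hcard2 : Nat.card P ≤ Nat.card (BM F hF) :=
      hcard.trans (card_BM_ge (p := p) hF hβ (βz_trace hF a) hξfix)
    have hb := hf₀.bijective_of_nat_card_le hcard2
    intro γ hγ e
    have : f₀ ⟨γ, hγ⟩ = f₀ 1 := Subtype.ext (by
      show π γ = π 1
      rw [e, map_one])
    have := hb.1 this
    exact congrArg Subtype.val this
  have hww : w * w = 1 := by
    have := hφ1 (W * W) (List.mem_append_right _ (by simp))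
    rwa [map_mul, ← hw] at this
  have hwt : w * t * w⁻¹ = (t ^ q)⁻¹ := by
    have := hφ1 (W * T * W⁻¹ * T ^ q) (List.mem_append_right _ (by simp))
    simp only [map_mul, map_inv, map_pow, ← hw, ← ht] at this
    exact eq_inv_of_mul_eq_one_left this
  let D : Cell.Data (PresentedGroup R) hF :=
    { π := π, t := t, w := w, P := P, ζ := ζ,
      ht := by rw [ht, hπφ, ev_T], hw := by rw [hw, hπφ, ev_W], htP := htP, hP1 := hP1, hP2 := hP2,
      hinj := hinj, hww := hww, hwt := hwt, hζ := hgen }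
  have hGz : D.Gd 0 (βz q ζ a) := by
    intro γ hγ e
    have e0 : γ = φ (ι z) := by
      apply D.inj hγ (hιP z)
      show π γ = π _
      rw [hπφ, ev_ι, ev_zz hF]
      exact e
    have := hφ1 (W * ι z * W⁻¹ * (ι w₁ * W * ι w₂)⁻¹) (List.mem_append_right _ (by simp))
    rw [map_mul, map_inv, mul_inv_eq_one] at this
    simp only [map_mul, map_inv, ← hw] at this
    rw [e0]
    exact ⟨φ (ι w₁), hιP _, φ (ι w₂), hιP _, this⟩
  have hGx : D.Am (1 / (1 - ν₀)) 1 := by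
    intro γ hγ e
    have e0 : γ = x := by
      apply D.inj hγ hxP
      show π γ = π x
      rw [hx, hπφ, ev_X]
      have := e
      simp only [one_pow, mul_one] at this
      exact this
    have := hφ1 (W * X * W⁻¹ * (ι w₃ * W * ι w₄)⁻¹) (List.mem_append_right _ (by simp))
    rw [map_mul, map_inv, mul_inv_eq_one] at this
    simp only [map_mul, map_inv, ← hw, ← hx] at this
    rw [e0]
    exact ⟨φ (ι w₃), hιP _, φ (ι w₄), hιP _, this⟩
  have hZ : ∀ c : F, c ≠ 0 → c + c ^ q = 0 → D.Gd 0 c :=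
    Cell.Data.Gd.all_center hGz hβ (βz_trace hF a)
  have hall := Cell.Data.all_good (D := D) (ν₀ := ν₀) rfl hord' (nu_gen hF hord hgen) hq1 hGx hZ
  have hgenΓ : closure ((D.P : Set (PresentedGroup R)) ∪ {D.w}) = ⊤ := by
    rw [eq_top_iff, ← PresentedGroup.closure_range_of, closure_le]
    rintro _ ⟨i, rfl⟩
    fin_cases i
    · exact Subgroup.subset_closure (Or.inl (by
        show φ T ∈ P
        rw [← ht]; exact htP))
    · exact Subgroup.subset_closure (Or.inl (by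
        show φ X ∈ P
        rw [← hx]; exact hxP))
    · exact Subgroup.subset_closure (Or.inr (by
        show φ W = w
        rw [hw]))
  obtain ⟨hπinj, hrange⟩ := D.bijective hgenΓ hall
  refine ⟨rl.toFinset, (List.toFinset_card_le _).trans hrllen, ?_⟩
  exact ⟨(MonoidHom.ofInjective hπinj).trans (MulEquiv.subgroupCongr hrange)⟩

/-- `G0` is isomorphic to `SU₃` of the standard form. -/
theorem iso_G0_SU : Nonempty (G0 F q ≃* Cfsg.SU 3 F q) := by
  classical
  open Cfsg.Agent.Lib.Classical.Herm in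
  obtain ⟨Φ, hΦ⟩ := HermOnb.exists_isometry hF 3 (Fin 3 → F) (SU3Gen.hJ q) (SU3Gen.isHerm_hJ hF) (by simp)
  set P : Matrix (Fin 3) (Fin 3) F := LinearMap.toMatrix' (Φ : (Fin 3 → F) →ₗ[F] (Fin 3 → F)) with hP
  set Q : Matrix (Fin 3) (Fin 3) F :=
    LinearMap.toMatrix' ((Φ.symm : (Fin 3 → F) ≃ₗ[F] (Fin 3 → F)) : (Fin 3 → F) →ₗ[F] (Fin 3 → F)) with hQ
  have hPv : ∀ x, P *ᵥ x = Φ x := fun x => by rw [hP, LinearMap.toMatrix'_mulVec]; rfl
  have hQv : ∀ x, Q *ᵥ x = Φ.symm x := fun x => by rw [hQ, LinearMap.toMatrix'_mulVec]; rfl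
  have hQP : Q * P = 1 := by
    refine Matrix.ext_iff_mulVec.2 fun x => ?_
    rw [← Matrix.mulVec_mulVec, hPv, hQv, Matrix.one_mulVec, LinearEquiv.symm_apply_apply]
  have hPQ : P * Q = 1 := by
    refine Matrix.ext_iff_mulVec.2 fun x => ?_
    rw [← Matrix.mulVec_mulVec, hQv, hPv, Matrix.one_mulVec, LinearEquiv.apply_symm_apply]
  open Cfsg.Agent.Lib.Classical.Herm.SU3Gen in
  have hmemSU : ∀ A ∈ G0 F q, conjSL hQP A ∈ Cfsg.SU 3 F q := by
    intro A hA x y
    have e : ∀ z, P *ᵥ (((conjSL hQP A : SpecialLinearGroup (Fin 3) F) : Matrix (Fin 3) (Fin 3) F) *ᵥ z) =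
        (A : Matrix (Fin 3) (Fin 3) F) *ᵥ (P *ᵥ z) := by
      intro z
      rw [coe_conjSL, Matrix.mulVec_mulVec, ← Matrix.mul_assoc, ← Matrix.mul_assoc, hPQ,
        Matrix.one_mul, Matrix.mulVec_mulVec]
    change Cfsg.hermForm 3 F q _ _ = Cfsg.hermForm 3 F q x y
    rw [← hΦ, ← hΦ, ← hPv, ← hPv, ← hPv, ← hPv]
    change hJ q (P *ᵥ (((conjSL hQP A : SpecialLinearGroup (Fin 3) F) : Matrix (Fin 3) (Fin 3) F) *ᵥ x))
      (P *ᵥ (((conjSL hQP A : SpecialLinearGroup (Fin 3) F) : Matrix (Fin 3) (Fin 3) F) *ᵥ y)) = _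
    rw [e, e, mem_G0.1 hA]
  open Cfsg.Agent.Lib.Classical.Herm.SU3Gen in
  have hmemG : ∀ B ∈ Cfsg.SU 3 F q, conjSL hPQ B ∈ G0 F q := by
    intro B hB
    rw [mem_G0]
    intro x y
    have e : ∀ z, ((conjSL hPQ B : SpecialLinearGroup (Fin 3) F) : Matrix (Fin 3) (Fin 3) F) *ᵥ z =
        Φ ((B : Matrix (Fin 3) (Fin 3) F) *ᵥ (Φ.symm z)) := by
      intro z
      rw [coe_conjSL, ← hPv, ← hQv, Matrix.mulVec_mulVec, Matrix.mulVec_mulVec, Matrix.mul_assoc]
    rw [e, e, hΦ]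
    have hB' : Cfsg.hermForm 3 F q ((B : Matrix (Fin 3) (Fin 3) F) *ᵥ (Φ.symm x))
        ((B : Matrix (Fin 3) (Fin 3) F) *ᵥ (Φ.symm y)) = Cfsg.hermForm 3 F q (Φ.symm x) (Φ.symm y) :=
      hB _ _
    rw [hB', ← hΦ, LinearEquiv.apply_symm_apply, LinearEquiv.apply_symm_apply]
  open Cfsg.Agent.Lib.Classical.Herm.SU3Gen in
  exact ⟨{ toFun := fun A => ⟨conjSL hQP A.1, hmemSU A.1 A.2⟩
           invFun := fun B => ⟨conjSL hPQ B.1, hmemG B.1 B.2⟩
           left_inv := fun A => by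
             apply Subtype.ext
             apply Subtype.ext
             change P * (Q * (A.1 : Matrix (Fin 3) (Fin 3) F) * P) * Q = A.1
             calc P * (Q * (A.1 : Matrix (Fin 3) (Fin 3) F) * P) * Q
                 = (P * Q) * (A.1 : Matrix (Fin 3) (Fin 3) F) * (P * Q) := by
                   simp only [Matrix.mul_assoc]
               _ = _ := by rw [hPQ, Matrix.one_mul, Matrix.mul_one]
           right_inv := fun B => by
             apply Subtype.ext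
             apply Subtype.ext
             change Q * (P * (B.1 : Matrix (Fin 3) (Fin 3) F) * Q) * P = B.1
             calc Q * (P * (B.1 : Matrix (Fin 3) (Fin 3) F) * Q) * P
                 = (Q * P) * (B.1 : Matrix (Fin 3) (Fin 3) F) * (Q * P) := by
                   simp only [Matrix.mul_assoc]
               _ = _ := by rw [hQP, Matrix.one_mul, Matrix.mul_one]
           map_mul' := fun A A' => by
             apply Subtype.ext
             exact conjSL_mul hQP hPQ A.1 A'.1 }⟩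

/-- The centre of `SU₃` is cyclic. -/
theorem center_zpowers : ∃ z : Cfsg.SU 3 F q, Subgroup.center (Cfsg.SU 3 F q) = zpowers z := by
  classical
  let C := Subgroup.center (Cfsg.SU 3 F q)
  have hsc : ∀ z : C, ∃ c : F, (((z.1 : Cfsg.SU 3 F q) : SpecialLinearGroup (Fin 3) F) :
      Matrix (Fin 3) (Fin 3) F) = Matrix.scalar (Fin 3) c :=
    fun z => Cfsg.Agent.Lib.Classical.Herm.SU.center_scalar hF z.1 z.2
  let f : C →* F :=
    { toFun := fun z => (((z.1 : Cfsg.SU 3 F q) : SpecialLinearGroup (Fin 3) F) :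
        Matrix (Fin 3) (Fin 3) F) 0 0
      map_one' := by
        show ((1 : Matrix (Fin 3) (Fin 3) F)) 0 0 = 1
        simp
      map_mul' := by
        intro z z'
        obtain ⟨c, hc⟩ := hsc z
        obtain ⟨c', hc'⟩ := hsc z'
        show (((z.1 : Cfsg.SU 3 F q) : SpecialLinearGroup (Fin 3) F) *
          ((z'.1 : Cfsg.SU 3 F q) : SpecialLinearGroup (Fin 3) F) :
            SpecialLinearGroup (Fin 3) F).1 0 0 = _
        rw [Matrix.SpecialLinearGroup.coe_mul, hc, hc']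
        simp }
  have hf : Function.Injective f := by
    intro z z' h
    obtain ⟨c, hc⟩ := hsc z
    obtain ⟨c', hc'⟩ := hsc z'
    have h' : (((z.1 : Cfsg.SU 3 F q) : SpecialLinearGroup (Fin 3) F) : Matrix (Fin 3) (Fin 3) F) 0 0 =
      (((z'.1 : Cfsg.SU 3 F q) : SpecialLinearGroup (Fin 3) F) : Matrix (Fin 3) (Fin 3) F) 0 0 := h
    rw [hc, hc'] at h'
    simp at h'
    apply Subtype.ext
    apply Subtype.ext
    apply ext_S3
    rw [hc, hc', h']
  haveI : IsCyclic C := isCyclic_of_injective_ringHom f hf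
  obtain ⟨g, hg⟩ := IsCyclic.exists_generator (α := C)
  refine ⟨g.1, le_antisymm ?_ ?_⟩
  · intro x hx
    obtain ⟨k, hk⟩ := hg ⟨x, hx⟩
    refine ⟨k, ?_⟩
    have := congrArg Subtype.val hk
    simpa using this
  · rw [zpowers_le]
    exact g.2

/-- The final theorem. -/
theorem main (h2 : q ≠ 2) (h5 : q ≠ 5) :
    (∃ rels : Finset (FreeGroup (Fin 3)), rels.card ≤ 23 ∧
      Nonempty (PresentedGroup (↑rels : Set (FreeGroup (Fin 3))) ≃* ↥(Cfsg.SU 3 F q))) ∧
    (∃ rels : Finset (FreeGroup (Fin 3)), rels.card ≤ 24 ∧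
      Nonempty (PresentedGroup (↑rels : Set (FreeGroup (Fin 3))) ≃* Cfsg.PSU 3 F q)) := by
  have hq := two_le_q hF
  have h3 : 3 ≤ q := by omega
  obtain ⟨rels, hr, ⟨E⟩⟩ := main_G0 hF h3 h5
  obtain ⟨e⟩ := iso_G0_SU hF
  have E' := E.trans e
  refine ⟨⟨rels, by omega, ⟨E'⟩⟩, ?_⟩
  obtain ⟨z, hz⟩ := center_zpowers hF
  obtain ⟨rels', hr', h'⟩ := Cfsg.Agent.Lib.PresSL.Glue.quot E'
    (QuotientGroup.mk' (Subgroup.center (Cfsg.SU 3 F q))) (QuotientGroup.mk'_surjective _) z (by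
      rw [QuotientGroup.ker_mk', hz])
  exact ⟨rels', by omega, h'⟩

end Main

end Cfsg.Agent.Lib.PresSU.Main
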