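import Mathlib
import Cfsg.Agent.Lib.Classical.Herm.SU3Gen

/-!
# The matrix model of `SU₃(q)` for the presentation

`XS a β`, `HS s`, `WS` in `SL₃`, the relations between them, and the Bruhat decomposition of the
isometry group `G0` of the antidiagonal form.
-/

set_option autoImplicit false
set_option linter.unusedSectionVars false
set_option linter.unusedSimpArgs false
set_option linter.unusedVariables false
set_option linter.unnecessarySeqFocus false
set_option linter.flexible false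

namespace Cfsg.Agent.Lib.PresSU.Model

open Matrix Cfsg Subgroup
open Cfsg.Agent.Lib.Classical.Herm.Basic Cfsg.Agent.Lib.Classical.Herm.SU3Gen

variable {F : Type*} [Field F] [Fintype F] {q : ℕ}

/-- `SL₃`. -/
abbrev S3 (F : Type*) [Field F] := SpecialLinearGroup (Fin 3) F

/-- Root elements as elements of `SL₃`. -/
def XS (q : ℕ) (a β : F) : S3 F := ⟨xM q a β, by simp [xM, Matrix.det_fin_three]⟩

/-- Torus elements. -/
def HS (q : ℕ) (s : Fˣ) : S3 F :=
  ⟨!![(s : F), 0, 0; 0, (s : F) ^ q / s, 0; 0, 0, ((s : F) ^ q)⁻¹], by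
    have hs : (s : F) ≠ 0 := s.ne_zero
    have hsq : (s : F) ^ q ≠ 0 := pow_ne_zero _ hs
    simp [Matrix.det_fin_three]
    field_simp⟩

/-- The Weyl element. -/
def WS : S3 F := ⟨!![0, 0, 1; 0, -1, 0; 1, 0, 0], by simp [Matrix.det_fin_three]⟩

lemma ext_S3 {g h : S3 F} (e : (g : Matrix (Fin 3) (Fin 3) F) = h) : g = h := Subtype.ext e

@[simp] lemma coe_XS (a β : F) : ((XS q a β : S3 F) : Matrix (Fin 3) (Fin 3) F) = xM q a β := rfl

lemma coe_HS (s : Fˣ) : ((HS q s : S3 F) : Matrix (Fin 3) (Fin 3) F) =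
    !![(s : F), 0, 0; 0, (s : F) ^ q / s, 0; 0, 0, ((s : F) ^ q)⁻¹] := rfl

lemma coe_WS : ((WS : S3 F) : Matrix (Fin 3) (Fin 3) F) = !![0, 0, 1; 0, -1, 0; 1, 0, 0] := rfl

lemma XS_mul (hF : Fintype.card F = q ^ 2) (a β a' β' : F) :
    XS q a β * XS q a' β' = XS q (a + a') (β + β' + a * a' ^ q) :=
  Subtype.ext (xM_mul hF a β a' β')

lemma XS_zero (hF : Fintype.card F = q ^ 2) : XS q (0 : F) 0 = 1 :=
  Subtype.ext (xM_zero_zero hF)

lemma XS_inv (hF : Fintype.card F = q ^ 2) (a β : F) :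
    (XS q a β)⁻¹ = XS q (-a) (-β + a * a ^ q) := by
  rw [inv_eq_iff_mul_eq_one, XS_mul hF, pow_q_neg hF]
  have e1 : a + -a = 0 := by ring
  have e2 : β + (-β + a * a ^ q) + a * -a ^ q = 0 := by ring
  rw [e1, e2, XS_zero hF]

lemma HS_mul (s s' : Fˣ) : HS q (s * s') = HS q s * HS q s' := by
  apply ext_S3
  rw [Matrix.SpecialLinearGroup.coe_mul, coe_HS, coe_HS, coe_HS]
  have hs : (s : F) ≠ 0 := s.ne_zero
  have hs' : (s' : F) ≠ 0 := s'.ne_zero
  have hsq : (s : F) ^ q ≠ 0 := pow_ne_zero _ hs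
  have hsq' : (s' : F) ^ q ≠ 0 := pow_ne_zero _ hs'
  ext i j
  fin_cases i <;> fin_cases j <;>
    simp [Matrix.mul_apply, Fin.sum_univ_three, mul_pow] <;> field_simp

lemma HS_one : HS q (1 : Fˣ) = (1 : S3 F) := by
  apply ext_S3
  rw [coe_HS]
  ext i j
  fin_cases i <;> fin_cases j <;> simp

/-- `HS` as a homomorphism. -/
def HSm (q : ℕ) : Fˣ →* S3 F where
  toFun := HS q
  map_one' := HS_one
  map_mul' := HS_mul

@[simp] lemma HSm_apply (s : Fˣ) : HSm q s = HS q s := rfl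

lemma HS_pow (s : Fˣ) (n : ℕ) : HS q (s ^ n) = (HS q s) ^ n := map_pow (HSm q) s n

lemma HS_zpow (s : Fˣ) (n : ℤ) : HS q (s ^ n) = (HS q s) ^ n := map_zpow (HSm q) s n

lemma HS_inv (s : Fˣ) : HS q s⁻¹ = (HS q s)⁻¹ := map_inv (HSm q) s

lemma WS_mul_WS : (WS : S3 F) * WS = 1 := by
  apply ext_S3
  rw [Matrix.SpecialLinearGroup.coe_mul, coe_WS]
  ext i j
  fin_cases i <;> fin_cases j <;> simp [Matrix.mul_apply, Fin.sum_univ_three]

lemma WS_inv : (WS : S3 F)⁻¹ = WS := inv_eq_of_mul_eq_one_left WS_mul_WS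

/-- The action of the torus on the first coordinate. -/
def cf (q : ℕ) (s : Fˣ) : Fˣ := s ^ 2 / s ^ q

lemma coe_cf (s : Fˣ) : ((cf q s : Fˣ) : F) = (s : F) ^ 2 / (s : F) ^ q := by
  simp [cf]

lemma units_pow_q_pow_q (hF : Fintype.card F = q ^ 2) (s : Fˣ) : (s ^ q) ^ q = s := by
  apply Units.ext
  simpa using pow_q_pow_q hF (s : F)

lemma HS_conj (hF : Fintype.card F = q ^ 2) (s : Fˣ) (a β : F) :
    HS q s * XS q a β * (HS q s)⁻¹ =
      XS q ((cf q s : F) * a) ((s : F) * (s : F) ^ q * β) := by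
  apply ext_S3
  apply coe_conj_of
  have hs : (s : F) ≠ 0 := s.ne_zero
  have hsq : (s : F) ^ q ≠ 0 := pow_ne_zero _ hs
  have h1 : ((s : F) ^ q) ^ q = s := pow_q_pow_q hF _
  rw [coe_HS, coe_XS, coe_XS, coe_cf, xM, xM]
  have h2 : ((s : F) ^ 2 / (s : F) ^ q * a) ^ q = ((s : F) ^ q) ^ 2 / s * a ^ q := by
    rw [mul_pow, div_pow, ← pow_mul, mul_comm 2 q, pow_mul, h1]
  rw [h2]
  ext i j
  fin_cases i <;> fin_cases j <;>
    simp [Matrix.mul_apply, Fin.sum_univ_three] <;> field_simp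

lemma WS_HS (hF : Fintype.card F = q ^ 2) (s : Fˣ) :
    WS * HS q s * (WS : S3 F)⁻¹ = (HS q (s ^ q))⁻¹ := by
  rw [← HS_inv, WS_inv]
  apply ext_S3
  rw [Matrix.SpecialLinearGroup.coe_mul, Matrix.SpecialLinearGroup.coe_mul, coe_HS, coe_HS, coe_WS]
  have hs : (s : F) ≠ 0 := s.ne_zero
  have hsq : (s : F) ^ q ≠ 0 := pow_ne_zero _ hs
  have h1 : ((s : F) ^ q) ^ q = s := pow_q_pow_q hF _
  ext i j
  fin_cases i <;> fin_cases j <;>
    simp [Matrix.mul_apply, Fin.sum_univ_three, inv_pow, h1] <;> field_simp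

/-- The Bruhat identity. -/
lemma bruhat (hF : Fintype.card F = q ^ 2) (a : F) (β : Fˣ)
    (hc : (β : F) + (β : F) ^ q = a ^ (q + 1)) :
    WS * XS q a β * (WS : S3 F)⁻¹ =
      XS q (-a / (β : F) ^ q) (1 / β) * HS q (β ^ q)⁻¹ * WS * XS q (-a / β) (1 / β) := by
  rw [WS_inv]
  apply ext_S3
  simp only [Matrix.SpecialLinearGroup.coe_mul]
  rw [coe_HS, coe_WS, coe_XS, coe_XS, coe_XS, xM, xM, xM]
  have hb : (β : F) ≠ 0 := β.ne_zero
  have hbq : (β : F) ^ q ≠ 0 := pow_ne_zero _ hb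
  have h1 : ((β : F) ^ q) ^ q = β := pow_q_pow_q hF _
  have e1 : (-a / (β : F) ^ q) ^ q = -a ^ q / β := by
    rw [div_pow, pow_q_neg hF, h1]
  have e2 : (-a / (β : F)) ^ q = -a ^ q / (β : F) ^ q := by
    rw [div_pow, pow_q_neg hF]
  have e3 : (((β ^ q)⁻¹ : Fˣ) : F) = ((β : F) ^ q)⁻¹ := by simp
  rw [e1, e2, e3, inv_pow, h1]
  have hc' : (β : F) + (β : F) ^ q = a * a ^ q := by
    rw [hc, pow_succ]; ring
  ext i j
  fin_cases i <;> fin_cases j <;>
    simp [Matrix.mul_apply, Fin.sum_univ_three] <;> field_simp <;>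
    first
      | ring1
      | linear_combination hc'
      | linear_combination -hc'
      | linear_combination (a) * hc'
      | linear_combination (-a) * hc'
      | skip

/-- The constraint on root elements. -/
def Ctr (q : ℕ) (a β : F) : Prop := β + β ^ q = a ^ (q + 1)

lemma Ctr.mul (hF : Fintype.card F = q ^ 2) {a β a' β' : F} (h : Ctr q a β) (h' : Ctr q a' β') :
    Ctr q (a + a') (β + β' + a * a' ^ q) := by
  unfold Ctr at *
  rw [pow_succ] at h h' ⊢
  simp only [pow_q_add hF, mul_pow, pow_q_pow_q hF]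
  linear_combination h + h'

lemma Ctr.inv (hF : Fintype.card F = q ^ 2) {a β : F} (h : Ctr q a β) :
    Ctr q (-a) (-β + a * a ^ q) := by
  unfold Ctr at *
  rw [pow_succ] at h ⊢
  simp only [pow_q_add hF, pow_q_neg hF, mul_pow, pow_q_pow_q hF]
  linear_combination -h

lemma Ctr.conj (hF : Fintype.card F = q ^ 2) (s : Fˣ) {a β : F} (h : Ctr q a β) :
    Ctr q ((cf q s : F) * a) ((s : F) * (s : F) ^ q * β) := by
  unfold Ctr at *
  rw [pow_succ] at h ⊢
  have hs : (s : F) ≠ 0 := s.ne_zero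
  have hsq : (s : F) ^ q ≠ 0 := pow_ne_zero _ hs
  rw [coe_cf]
  simp only [mul_pow, div_pow, pow_q_pow_q hF]
  rw [← pow_mul, mul_comm 2 q, pow_mul,
    show ((s : F) ^ q) ^ 2 / s * a ^ q * ((s : F) ^ 2 / (s : F) ^ q * a) =
    (s : F) * (s : F) ^ q * (a ^ q * a) by field_simp, ← h]
  ring

lemma Ctr.zero (hF : Fintype.card F = q ^ 2) : Ctr q (0 : F) 0 := by
  have hq := q_ne_zero hF
  unfold Ctr
  simp [hq]

lemma XS_mem_G0 (hF : Fintype.card F = q ^ 2) {a β : F} (h : Ctr q a β) : XS q a β ∈ G0 F q := by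
  have hq := q_ne_zero hF
  refine mem_G0_of_entries hF (A := xM q a β) rfl ?_
  unfold Ctr at h
  rw [pow_succ] at h
  intro i j
  fin_cases i <;> fin_cases j <;>
    simp [hJ, xM, Matrix.mulVec, dotProduct, Fin.sum_univ_three, hq, pow_q_add hF, pow_q_pow_q hF,
      Pi.single_apply] <;>
    first
      | ring1
      | linear_combination h
      | linear_combination -h
      | skip

lemma HS_mem_G0 (hF : Fintype.card F = q ^ 2) (s : Fˣ) : HS q s ∈ G0 F q := by
  have hq := q_ne_zero hF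
  have hs : (s : F) ≠ 0 := s.ne_zero
  have hsq : (s : F) ^ q ≠ 0 := pow_ne_zero _ hs
  refine mem_G0_of_entries hF (A := !![(s : F), 0, 0; 0, (s : F) ^ q / s, 0; 0, 0, ((s : F) ^ q)⁻¹]) rfl ?_
  intro i j
  fin_cases i <;> fin_cases j <;>
    simp [hJ, Matrix.mulVec, dotProduct, Fin.sum_univ_three, hq, Pi.single_apply, inv_pow, div_pow,
      pow_q_pow_q hF] <;> field_simp

lemma WS_mem_G0 (hF : Fintype.card F = q ^ 2) : (WS : S3 F) ∈ G0 F q := by
  have hq := q_ne_zero hF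
  refine mem_G0_of_entries hF (A := !![0, 0, 1; 0, -1, 0; 1, 0, 0]) rfl ?_
  intro i j
  fin_cases i <;> fin_cases j <;>
    simp [hJ, Matrix.mulVec, dotProduct, Fin.sum_univ_three, hq, Pi.single_apply, pow_q_neg hF,
      one_pow]

/-- The Borel subgroup. -/
def BM (F : Type*) [Field F] [Fintype F] (hF : Fintype.card F = q ^ 2) : Subgroup (S3 F) where
  carrier := {g | ∃ (a β : F) (s : Fˣ), Ctr q a β ∧ g = XS q a β * HS q s}
  mul_mem' := by
    rintro _ _ ⟨a, β, s, h, rfl⟩ ⟨a', β', s', h', rfl⟩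
    refine ⟨_, _, s * s', h.mul hF (h'.conj hF s), ?_⟩
    rw [HS_mul, ← XS_mul hF, ← HS_conj hF]
    group
  one_mem' := ⟨0, 0, 1, Ctr.zero hF, by rw [XS_zero hF, HS_one, one_mul]⟩
  inv_mem' := by
    rintro _ ⟨a, β, s, h, rfl⟩
    refine ⟨_, _, s⁻¹, (h.inv hF).conj hF s⁻¹, ?_⟩
    rw [← HS_conj hF, ← XS_inv hF, HS_inv]
    group

lemma XS_mem_BM (hF : Fintype.card F = q ^ 2) {a β : F} (h : Ctr q a β) : XS q a β ∈ BM F hF :=
  ⟨a, β, 1, h, by rw [HS_one, mul_one]⟩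

lemma HS_mem_BM (hF : Fintype.card F = q ^ 2) (s : Fˣ) : HS q s ∈ BM F hF :=
  ⟨0, 0, s, Ctr.zero hF, by rw [XS_zero hF, one_mul]⟩

lemma BM_le_G0 (hF : Fintype.card F = q ^ 2) : BM F hF ≤ G0 F q := by
  rintro _ ⟨a, β, s, h, rfl⟩
  exact mul_mem (XS_mem_G0 hF h) (HS_mem_G0 hF s)

/-- An element of `G0` fixing the line of `e₀` is in the Borel subgroup. -/
lemma mem_BM_of_col (hF : Fintype.card F = q ^ 2) {g : S3 F} (hg : g ∈ G0 F q)
    (h10 : (g : Matrix (Fin 3) (Fin 3) F) 1 0 = 0) (h20 : (g : Matrix (Fin 3) (Fin 3) F) 2 0 = 0) :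
    g ∈ BM F hF := by
  have hq := q_ne_zero hF
  have hdet : (g : Matrix (Fin 3) (Fin 3) F).det = 1 := g.2
  have hpres := mem_G0.1 hg
  have p12 := hpres ![1, 0, 0] ![0, 1, 0]
  have p13 := hpres ![1, 0, 0] ![0, 0, 1]
  have p22 := hpres ![0, 1, 0] ![0, 1, 0]
  have p23 := hpres ![0, 1, 0] ![0, 0, 1]
  have p33 := hpres ![0, 0, 1] ![0, 0, 1]
  rw [Matrix.det_fin_three] at hdet
  set M := (g : Matrix (Fin 3) (Fin 3) F) with hM
  simp only [h10, h20] at hdet
  simp [hJ, Matrix.mulVec, dotProduct, Fin.sum_univ_three, hq, h10, h20] at p12 p13 p22 p23 p33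
  have ht1 : M 0 0 ≠ 0 := by
    intro h0
    rw [h0] at hdet
    simp at hdet
  have h21 : M 2 1 = 0 := by
    rcases p12 with h | h
    · exact absurd h ht1
    · exact h
  simp only [h21] at hdet p22 p23 p33
  simp at hdet p22 p23 p33
  have ht2 : M 1 1 ≠ 0 := by
    intro h0
    rw [h0] at hdet
    simp at hdet
  have ht3 : M 2 2 ≠ 0 := by
    intro h0
    rw [h0] at hdet
    simp at hdet
  have ht3q : M 2 2 ^ q ≠ 0 := pow_ne_zero _ ht3
  have ht2q : M 1 1 ^ q ≠ 0 := pow_ne_zero _ ht2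
  have ht1q : M 0 0 ^ q ≠ 0 := pow_ne_zero _ ht1
  let s : Fˣ := Units.mk0 (M 0 0) ht1
  have hs : (s : F) = M 0 0 := rfl
  have h3 : M 2 2 = (M 0 0 ^ q)⁻¹ := by
    have := congrArg (· ^ q) p13
    simp only [mul_pow, pow_q_pow_q hF, one_pow] at this
    exact eq_inv_of_mul_eq_one_right this
  have h2 : M 1 1 = M 0 0 ^ q / M 0 0 := by
    rw [h3] at hdet
    field_simp at hdet ⊢
    linear_combination hdet
  have h23 : M 1 2 = (M 0 1 / M 1 1) ^ q * M 2 2 := by
    rw [div_pow]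
    have := congrArg (· ^ q) p23
    simp only [sub_eq_zero, add_zero, mul_pow, pow_q_sub hF, pow_q_add hF, pow_q_pow_q hF,
      zero_pow hq, neg_eq_zero] at this
    field_simp
    linear_combination -this
  refine ⟨M 0 1 / M 1 1, M 0 2 / M 2 2, s, ?_, ?_⟩
  · unfold Ctr
    rw [pow_succ, div_pow, div_pow]
    rw [h23] at p33
    simp only [mul_pow, div_pow, pow_q_pow_q hF] at p33
    field_simp at p33 ⊢
    linear_combination p33
  · apply ext_S3
    rw [Matrix.SpecialLinearGroup.coe_mul, coe_HS, coe_XS, xM, hs, ← hM]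
    ext i j
    fin_cases i <;> fin_cases j <;>
      simp [Matrix.mul_apply, Fin.sum_univ_three, h10, h20, h21]
    · rw [h2]; field_simp
    · rw [h3]; field_simp
    · exact h2
    · rw [h23, h3]
    · exact h3

/-- The Bruhat decomposition of `G0`. -/
lemma G0_cases (hF : Fintype.card F = q ^ 2) {g : S3 F} (hg : g ∈ G0 F q) :
    g ∈ BM F hF ∨ ∃ (a β : F) (g' : S3 F), Ctr q a β ∧ g' ∈ BM F hF ∧ g = XS q a β * WS * g' := by
  have hq := q_ne_zero hF
  set M := (g : Matrix (Fin 3) (Fin 3) F) with hM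
  by_cases h20 : M 2 0 = 0
  · left
    have p11 := (mem_G0.1 hg) ![1, 0, 0] ![1, 0, 0]
    simp [hJ, Matrix.mulVec, dotProduct, Fin.sum_univ_three, hq, ← hM, h20] at p11
    exact mem_BM_of_col hF hg p11 h20
  · right
    set b : Fin 3 → F := fun i => M i 0 with hb
    have hiso : hJ q b b = 0 := by
      have p11 := (mem_G0.1 hg) ![1, 0, 0] ![1, 0, 0]
      simp [hJ, Matrix.mulVec, dotProduct, Fin.sum_univ_three, hq, ← hM] at p11
      simp only [hJ, hb]
      linear_combination p11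
    obtain ⟨a, β, hc, hdec⟩ := decomp hF hiso h20
    have h0 := congrFun hdec 0
    have h1 := congrFun hdec 1
    simp [hb, xM, Matrix.mulVec, dotProduct, Fin.sum_univ_three] at h0 h1
    have hXinv := XS_inv (q := q) hF a β
    refine ⟨a, β, WS⁻¹ * (XS q a β)⁻¹ * g, hc, ?_, by group⟩
    refine mem_BM_of_col hF (mul_mem (mul_mem (inv_mem (WS_mem_G0 hF))
      (inv_mem (XS_mem_G0 hF hc))) hg) ?_ ?_
    · rw [hXinv, WS_inv]
      simp only [Matrix.SpecialLinearGroup.coe_mul, coe_WS, coe_XS, xM, ← hM]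
      simp [Matrix.mul_apply, Fin.sum_univ_three, pow_q_neg hF, h1]
      ring
    · rw [hXinv, WS_inv]
      simp only [Matrix.SpecialLinearGroup.coe_mul, coe_WS, coe_XS, xM, ← hM]
      simp [Matrix.mul_apply, Fin.sum_univ_three, pow_q_neg hF, h0, h1]
      ring

/-- Uniqueness in the Bruhat decomposition. -/
lemma eq_HS_of_conj (hF : Fintype.card F = q ^ 2) {g e : S3 F} (hg : g ∈ BM F hF)
    (he : e ∈ BM F hF) (h : g = WS * e * WS⁻¹) : ∃ s : Fˣ, g = HS q s := by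
  obtain ⟨a, β, s, hc, rfl⟩ := hg
  obtain ⟨a', β', s', hc', rfl⟩ := he
  have hs : (s : F) ≠ 0 := s.ne_zero
  have hsq : (s : F) ^ q ≠ 0 := pow_ne_zero _ hs
  have hs' : (s' : F) ≠ 0 := s'.ne_zero
  have hsq' : (s' : F) ^ q ≠ 0 := pow_ne_zero _ hs'
  have h' := congrArg (fun g : S3 F => (g : Matrix (Fin 3) (Fin 3) F)) h
  rw [WS_inv] at h'
  simp only [Matrix.SpecialLinearGroup.coe_mul, coe_WS, coe_XS, coe_HS, xM] at h'
  have e1 := congrFun (congrFun h' 0) 1
  have e2 := congrFun (congrFun h' 0) 2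
  simp [Matrix.mul_apply, Fin.sum_univ_three] at e1 e2
  refine ⟨s, ?_⟩
  rw [e1, e2, XS_zero hF, one_mul]

/-- Elements of the Borel subgroup are not the Weyl element. -/
lemma WS_not_mem_BM (hF : Fintype.card F = q ^ 2) : (WS : S3 F) ∉ BM F hF := by
  rintro ⟨a, β, s, hc, h⟩
  have h' := congrArg (fun g : S3 F => (g : Matrix (Fin 3) (Fin 3) F)) h
  simp only [Matrix.SpecialLinearGroup.coe_mul, coe_WS, coe_XS, coe_HS, xM] at h'
  have e1 := congrFun (congrFun h' 2) 0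
  simp [Matrix.mul_apply, Fin.sum_univ_three] at e1

end Cfsg.Agent.Lib.PresSU.Model
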